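import Mathlib

/-!
# The trace character of a finite field of characteristic two

A nontrivial additive character `ψ₀` trivial exactly on the image of `t ↦ t² + t`.
-/

set_option autoImplicit false
set_option linter.unusedSectionVars false
set_option linter.unusedSimpArgs false
set_option linter.unusedVariables false

namespace Cfsg.Agent.Lib.MinDeg.SpEven.Psi

variable {F : Type*} [Field F] [Fintype F]

section
variable [CharP F 2]

theorem add_self' (x : F) : x + x = 0 := CharTwo.add_self_eq_zero x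

theorem neg_eq' (x : F) : -x = x := CharTwo.neg_eq x

theorem sub_eq' (x y : F) : x - y = x + y := CharTwo.sub_eq_add x y

theorem add_sq' (x y : F) : (x + y) ^ 2 = x ^ 2 + y ^ 2 := by
  have := add_pow_char_of_commute (R := F) 2 (Commute.all x y)
  exact this

theorem exists_sqrt (x : F) : ∃ y : F, y ^ 2 = x := by
  have h : IsSquare x := isSquare_of_charTwo' x
  obtain ⟨y, hy⟩ := h
  exact ⟨y, by rw [hy, pow_two]⟩

/-- The additive map `t ↦ t² + t`. -/
def wp : F →+ F where
  toFun t := t ^ 2 + t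
  map_zero' := by simp
  map_add' x y := by
    rw [add_sq']
    have : x ^ 2 + y ^ 2 + (x + y) = (x ^ 2 + x) + (y ^ 2 + y) := by ring
    exact this

@[simp] theorem wp_apply (t : F) : wp t = t ^ 2 + t := rfl

theorem wp_eq_zero {t : F} : wp t = 0 ↔ t = 0 ∨ t = 1 := by
  rw [wp_apply]
  have : t ^ 2 + t = t * (t + 1) := by ring
  rw [this, mul_eq_zero]
  constructor
  · rintro (h | h)
    · exact Or.inl h
    · right
      have := neg_eq' (1 : F)
      exact (eq_neg_of_add_eq_zero_left h).trans this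
  · rintro (rfl | rfl)
    · exact Or.inl rfl
    · right
      exact add_self' 1

/-- The image of `wp` has index two. -/
theorem index_range : (wp (F := F)).range.index = 2 := by
  classical
  have h1 : Nat.card (wp (F := F)).ker = 2 := by
    have : ((wp (F := F)).ker : Set F) = {0, 1} := by
      ext t
      simp only [SetLike.mem_coe, AddMonoidHom.mem_ker, Set.mem_insert_iff, Set.mem_singleton_iff, wp_eq_zero]
    rw [← SetLike.coe_sort_coe, this]
    rw [Nat.card_coe_set_eq, Set.ncard_pair (zero_ne_one)]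
  have h2 := AddSubgroup.card_mul_index (wp (F := F)).ker
  rw [AddSubgroup.index_ker] at h2
  have h3 := AddSubgroup.card_mul_index (wp (F := F)).range
  rw [h1] at h2
  have hpos : 0 < Nat.card (wp (F := F)).range := Nat.card_pos
  have h4 : Nat.card (wp (F := F)).range * (wp (F := F)).range.index =
      Nat.card (wp (F := F)).range * 2 := by
    rw [h3, ← h2, mul_comm]
  exact Nat.eq_of_mul_eq_mul_left hpos h4

/-- **The character `ψ₀`.** -/
theorem exists_psi0 : ∃ ψ : AddChar F ℂ, (∃ x, ψ x ≠ 1) ∧ (∀ t, ψ (t ^ 2 + t) = 1) ∧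
    (∀ t, ψ t = 1 → ∃ ν, ν ^ 2 + ν = t) ∧ (∀ t, ψ t = 1 ∨ ψ t = -1) := by
  classical
  set H := (wp (F := F)).range with hH
  have hidx : H.index = 2 := index_range
  -- an element outside `H`
  obtain ⟨x₀, hx₀⟩ : ∃ x, x ∉ H := by
    by_contra hc
    push Not at hc
    have : H = ⊤ := eq_top_iff.mpr fun x _ => hc x
    rw [this, AddSubgroup.index_top] at hidx
    omega
  -- a character of the quotient
  have hq : (QuotientAddGroup.mk x₀ : F ⧸ H) ≠ 0 := by
    rw [Ne, QuotientAddGroup.eq_zero_iff]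
    exact hx₀
  obtain ⟨ψ', hψ'⟩ := AddChar.exists_apply_ne_zero.mpr hq
  let ψ : AddChar F ℂ := ψ'.compAddMonoidHom (QuotientAddGroup.mk' H)
  have hψH : ∀ t ∈ H, ψ t = 1 := by
    intro t ht
    show ψ' (QuotientAddGroup.mk t) = 1
    rw [(QuotientAddGroup.eq_zero_iff t).mpr ht, AddChar.map_zero_eq_one]
  have hψx : ψ x₀ ≠ 1 := hψ'
  have hout : ∀ t, t ∉ H → ψ t = ψ x₀ := by
    intro t ht
    have h1 : t + x₀ ∈ H := by
      rw [AddSubgroup.add_mem_iff_of_index_two hidx]
      exact iff_of_false ht hx₀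
    have h3 := hψH _ h1
    rw [AddChar.map_add_eq_mul] at h3
    have h4 : x₀ + x₀ = 0 := add_self' x₀
    have h5 : ψ x₀ * ψ x₀ = 1 := by
      rw [← AddChar.map_add_eq_mul, h4, AddChar.map_zero_eq_one]
    have h6 : ψ x₀ ≠ 0 := by
      intro h7
      rw [h7, zero_mul] at h5
      exact zero_ne_one h5
    have h7 : ψ t * ψ x₀ = ψ x₀ * ψ x₀ := by rw [h3, h5]
    exact mul_right_cancel₀ h6 h7
  have hx₀sq : ψ x₀ = -1 := by
    have h4 : x₀ + x₀ = 0 := add_self' x₀
    have h5 : ψ x₀ * ψ x₀ = 1 := by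
      rw [← AddChar.map_add_eq_mul, h4, AddChar.map_zero_eq_one]
    have h6 : (ψ x₀ - 1) * (ψ x₀ + 1) = 0 := by linear_combination h5
    rcases mul_eq_zero.mp h6 with h7 | h7
    · exact absurd (sub_eq_zero.mp h7) hψx
    · exact eq_neg_of_add_eq_zero_left h7
  refine ⟨ψ, ⟨x₀, hψx⟩, fun t => hψH _ ⟨t, rfl⟩, fun t ht => ?_, fun t => ?_⟩
  · by_contra hc
    have h1 : t ∉ H := by
      rintro ⟨ν, hν⟩
      exact hc ⟨ν, hν⟩
    rw [hout t h1] at ht
    exact hψx ht
  · by_cases ht : t ∈ H
    · exact Or.inl (hψH t ht)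
    · right
      rw [hout t ht, hx₀sq]

/-- A nontrivial additive character has no "constant" multiples. -/
theorem mul_char_inj {ψ : AddChar F ℂ} (hψ : ∃ x, ψ x ≠ 1) {γ : F}
    (h : ∀ t, ψ (γ * t) = 1) : γ = 0 := by
  by_contra hγ
  obtain ⟨x, hx⟩ := hψ
  apply hx
  have := h (γ⁻¹ * x)
  rwa [← mul_assoc, mul_inv_cancel₀ hγ, one_mul] at this

/-- Every additive character of `F` is `t ↦ ψ (γ t)`. -/
theorem exists_gamma {ψ : AddChar F ℂ} (hψ : ∃ x, ψ x ≠ 1) (χ : AddChar F ℂ) :
    ∃ γ : F, ∀ t, χ t = ψ (γ * t) := by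
  classical
  let f : F → AddChar F ℂ := fun γ =>
    { toFun := fun t => ψ (γ * t)
      map_zero_eq_one' := by simp
      map_add_eq_mul' := by
        intro a b
        rw [mul_add, AddChar.map_add_eq_mul] }
  have hinj : Function.Injective f := by
    intro γ γ' h
    have h1 : γ - γ' = 0 := by
      apply mul_char_inj hψ
      intro t
      have h2 : ψ (γ * t) = ψ (γ' * t) := DFunLike.congr_fun h t
      have h3 : (γ - γ') * t = γ * t + -(γ' * t) := by ring
      rw [h3, AddChar.map_add_eq_mul, h2, ← AddChar.map_add_eq_mul, add_neg_cancel,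
        AddChar.map_zero_eq_one]
    exact sub_eq_zero.mp h1
  have hcard : Nat.card F = Nat.card (AddChar F ℂ) := by
    rw [Nat.card_eq_fintype_card, Nat.card_eq_fintype_card, AddChar.card_eq]
  obtain ⟨γ, hγ⟩ := ((Nat.bijective_iff_injective_and_card f).mpr ⟨hinj, hcard⟩).2 χ
  exact ⟨γ, fun t => (DFunLike.congr_fun hγ t).symm⟩

end

end Cfsg.Agent.Lib.MinDeg.SpEven.Psi
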