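import Mathlib
import Cfsg.Agent.Lib.MinDeg.SpEven.Psi
import Cfsg.Agent.Lib.MinDeg.SpSiegel
import Cfsg.Agent.Lib.Fusion.PSp.Basic

/-!
# Coordinates for the point stabiliser in `Sp_{2m+2}(q)`, `q` even

`V = F^{m+1} ⊕ F^{m+1}`, `a₀ = bv 0`. The embedding of `Sp_{2m}` and the abelian group
`A = V_m × F` of Eichler elements `Et a₀ (inc y) (β + Q₀ y)`, with its normaliser.
-/

set_option autoImplicit false
set_option linter.unusedSectionVars false
set_option linter.unusedSimpArgs false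
set_option linter.unusedVariables false

namespace Cfsg.Agent.Lib.MinDeg.SpEven.Coord

open Matrix Cfsg Cfsg.Agent.Lib.Classical.Symp.Basic
open Cfsg.Agent.Lib.MinDeg.Weil.Heis (aa bb mkV aa_mkV bb_mkV ext_ab sympForm_eq)
open Cfsg.Agent.Lib.Fusion.PSp.Basic
open Cfsg.Agent.Lib.MinDeg.SpEven.Psi

variable {F : Type*} [Field F] [Fintype F] [DecidableEq F] {m : ℕ}

/-- The restriction. -/
def res (x : Fin (m + 1) ⊕ Fin (m + 1) → F) : Fin m ⊕ Fin m → F :=
  fun i => x (Sum.map Fin.succ Fin.succ i)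

/-- Vectors with prescribed coordinates at `0` and a prescribed restriction. -/
def glue (s t : F) (y : Fin m ⊕ Fin m → F) : Fin (m + 1) ⊕ Fin (m + 1) → F :=
  Sum.elim (Fin.cons s (aa y)) (Fin.cons t (bb y))

@[simp] theorem glue_inl_zero (s t : F) (y : Fin m ⊕ Fin m → F) : glue s t y (.inl 0) = s := rfl
@[simp] theorem glue_inr_zero (s t : F) (y : Fin m ⊕ Fin m → F) : glue s t y (.inr 0) = t := rfl
@[simp] theorem glue_inl_succ (s t : F) (y : Fin m ⊕ Fin m → F) (i : Fin m) :
    glue s t y (.inl i.succ) = y (.inl i) := rfl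
@[simp] theorem glue_inr_succ (s t : F) (y : Fin m ⊕ Fin m → F) (i : Fin m) :
    glue s t y (.inr i.succ) = y (.inr i) := rfl

@[simp] theorem res_glue (s t : F) (y : Fin m ⊕ Fin m → F) : res (glue s t y) = y := by
  funext i
  rcases i with i | i <;> rfl

theorem ext_split {x x' : Fin (m + 1) ⊕ Fin (m + 1) → F} (h1 : x (.inl 0) = x' (.inl 0))
    (h2 : x (.inr 0) = x' (.inr 0)) (h3 : res x = res x') : x = x' := by
  funext i
  rcases i with i | i
  · refine Fin.cases h1 (fun j => ?_) i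
    exact congrFun h3 (.inl j)
  · refine Fin.cases h2 (fun j => ?_) i
    exact congrFun h3 (.inr j)

theorem glue_res (x : Fin (m + 1) ⊕ Fin (m + 1) → F) : glue (x (.inl 0)) (x (.inr 0)) (res x) = x :=
  ext_split rfl rfl (res_glue _ _ _)

@[simp] theorem res_add (x y : Fin (m + 1) ⊕ Fin (m + 1) → F) : res (x + y) = res x + res y := rfl
@[simp] theorem res_smul (c : F) (x : Fin (m + 1) ⊕ Fin (m + 1) → F) : res (c • x) = c • res x := rfl

/-- The form in coordinates. -/
theorem form_split (x y : Fin (m + 1) ⊕ Fin (m + 1) → F) :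
    sympForm (m + 1) F x y = (x (.inr 0) * y (.inl 0) - x (.inl 0) * y (.inr 0)) +
      sympForm m F (res x) (res y) := by
  rw [sympForm_apply, sympForm_apply, Fin.sum_univ_succ]
  rfl

/-- The inclusion of the perpendicular of the hyperbolic pair. -/
def inc (y : Fin m ⊕ Fin m → F) : Fin (m + 1) ⊕ Fin (m + 1) → F := glue 0 0 y

@[simp] theorem res_inc (y : Fin m ⊕ Fin m → F) : res (inc y) = y := res_glue _ _ _
@[simp] theorem inc_inl_zero (y : Fin m ⊕ Fin m → F) : inc y (.inl 0) = 0 := rfl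
@[simp] theorem inc_inr_zero (y : Fin m ⊕ Fin m → F) : inc y (.inr 0) = 0 := rfl

theorem inc_add (y y' : Fin m ⊕ Fin m → F) : inc (y + y') = inc y + inc y' := by
  apply ext_split
  · simp
  · simp
  · simp

theorem inc_smul (c : F) (y : Fin m ⊕ Fin m → F) : inc (c • y) = c • inc y := by
  apply ext_split
  · simp
  · simp
  · simp

theorem inc_zero : inc (0 : Fin m ⊕ Fin m → F) = 0 := by
  apply ext_split
  · simp
  · simp
  · simp
    rfl

theorem form_inc (y y' : Fin m ⊕ Fin m → F) : sympForm (m + 1) F (inc y) (inc y') = sympForm m F y y' := by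
  rw [form_split]
  simp

/-- The point. -/
def a₀ (m : ℕ) (F : Type*) [Field F] : Fin (m + 1) ⊕ Fin (m + 1) → F := glue 0 1 0

@[simp] theorem a₀_inl : a₀ m F (.inl 0) = 0 := rfl
@[simp] theorem a₀_inr : a₀ m F (.inr 0) = 1 := rfl
@[simp] theorem res_a₀ : res (a₀ m F) = 0 := res_glue _ _ _

theorem form_inc_a₀ (y : Fin m ⊕ Fin m → F) : sympForm (m + 1) F (inc y) (a₀ m F) = 0 := by
  rw [form_split]
  have : sympForm m F y 0 = 0 := by
    simp [sympForm_apply]
  simp [this]

theorem form_apply_a₀ (x : Fin (m + 1) ⊕ Fin (m + 1) → F) :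
    sympForm (m + 1) F x (a₀ m F) = - x (.inl 0) := by
  rw [form_split]
  have : sympForm m F (res x) 0 = 0 := by
    simp [sympForm_apply]
  simp [this]

theorem a₀_ne_zero : a₀ m F ≠ 0 := by
  intro h
  have := congrFun h (.inr 0)
  simp at this

/-! ### Building elements from linear maps -/

/-- A form preserving linear map as a symplectic element. -/
def mkSp (f : (Fin m ⊕ Fin m → F) →ₗ[F] (Fin m ⊕ Fin m → F))
    (hf : ∀ x y, sympForm m F (f x) (f y) = sympForm m F x y) : symplecticGroup (Fin m) F :=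
  ⟨LinearMap.toMatrix' f, by
    rw [mem_symplecticGroup_iff_forall]
    intro u v
    rw [LinearMap.toMatrix'_mulVec, LinearMap.toMatrix'_mulVec, hf]⟩

@[simp] theorem act_mkSp (f : (Fin m ⊕ Fin m → F) →ₗ[F] (Fin m ⊕ Fin m → F))
    (hf : ∀ x y, sympForm m F (f x) (f y) = sympForm m F x y) (x : Fin m ⊕ Fin m → F) :
    act (mkSp f hf) x = f x := LinearMap.toMatrix'_mulVec f x

/-- The linear map of the embedding. -/
def iotaL (g : symplecticGroup (Fin m) F) :
    (Fin (m + 1) ⊕ Fin (m + 1) → F) →ₗ[F] (Fin (m + 1) ⊕ Fin (m + 1) → F) where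
  toFun x := glue (x (.inl 0)) (x (.inr 0)) (act g (res x))
  map_add' x y := by
    apply ext_split
    · simp
    · simp
    · simp [act_add]
  map_smul' c x := by
    apply ext_split
    · simp
    · simp
    · simp [act_smul]

@[simp] theorem iotaL_apply (g : symplecticGroup (Fin m) F) (x : Fin (m + 1) ⊕ Fin (m + 1) → F) :
    iotaL g x = glue (x (.inl 0)) (x (.inr 0)) (act g (res x)) := rfl

/-- The embedding of `Sp_{2m}` in `Sp_{2m+2}`. -/
def iota : symplecticGroup (Fin m) F →* symplecticGroup (Fin (m + 1)) F :=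
  MonoidHom.mk' (fun g => mkSp (iotaL g) (fun x y => by
      rw [form_split, form_split]
      simp only [iotaL_apply, glue_inl_zero, glue_inr_zero, res_glue, B_act])) (by
    intro g g'
    apply sp_ext
    intro x
    rw [act_mul, act_mkSp, act_mkSp, act_mkSp]
    apply ext_split
    · simp
    · simp
    · simp [act_mul])

@[simp] theorem act_iota (g : symplecticGroup (Fin m) F) (x : Fin (m + 1) ⊕ Fin (m + 1) → F) :
    act (iota g) x = glue (x (.inl 0)) (x (.inr 0)) (act g (res x)) :=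
  LinearMap.toMatrix'_mulVec (iotaL g) x

theorem act_iota_inc (g : symplecticGroup (Fin m) F) (y : Fin m ⊕ Fin m → F) :
    act (iota g) (inc y) = inc (act g y) := by
  rw [act_iota]
  simp [inc]

theorem act_iota_a₀ (g : symplecticGroup (Fin m) F) : act (iota g) (a₀ m F) = a₀ m F := by
  rw [act_iota]
  apply ext_split
  · simp
  · simp
  · simp [act_zero]

/-! ### The quadratic form -/

/-- The standard quadratic form. -/
def Q0 (y : Fin m ⊕ Fin m → F) : F := ∑ i, y (.inl i) * y (.inr i)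

theorem Q0_zero : Q0 (0 : Fin m ⊕ Fin m → F) = 0 := by
  simp [Q0]

theorem Q0_smul (c : F) (y : Fin m ⊕ Fin m → F) : Q0 (c • y) = c ^ 2 * Q0 y := by
  simp only [Q0, Pi.smul_apply, smul_eq_mul, Finset.mul_sum]
  refine Finset.sum_congr rfl fun i _ => ?_
  ring

section
variable [CharP F 2]

theorem Q0_add (y y' : Fin m ⊕ Fin m → F) :
    Q0 (y + y') = Q0 y + Q0 y' + sympForm m F y' y := by
  rw [sympForm_apply]
  simp only [Q0, Pi.add_apply]
  rw [← Finset.sum_add_distrib, ← Finset.sum_add_distrib]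
  refine Finset.sum_congr rfl fun i _ => ?_
  rw [sub_eq']
  ring

theorem form_swap' (y y' : Fin m ⊕ Fin m → F) : sympForm m F y y' = sympForm m F y' y := by
  rw [B_swap, neg_eq']

/-! ### The group `A` -/

/-- The Eichler elements. -/
def sA (p : (Fin m ⊕ Fin m → F) × F) : symplecticGroup (Fin (m + 1)) F :=
  Et (a₀ m F) (inc p.1) (p.2 + Q0 p.1)

theorem sA_add (p p' : (Fin m ⊕ Fin m → F) × F) : sA (p + p') = sA p * sA p' := by
  simp only [sA]
  rw [Et_mul (form_inc_a₀ _) (form_inc_a₀ _), ← inc_add, form_inc]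
  congr 1
  rw [Prod.fst_add, Prod.snd_add, Q0_add]
  ring

theorem sA_zero : sA (0 : (Fin m ⊕ Fin m → F) × F) = 1 := by
  simp only [sA, Prod.fst_zero, Prod.snd_zero, Q0_zero, add_zero, inc_zero]
  exact Et_zero_zero _

theorem sA_zero_left (β : F) : sA ((0 : Fin m ⊕ Fin m → F), β) = tr (a₀ m F) β := by
  rw [tr_eq_Et]
  simp only [sA, Q0_zero, add_zero, inc_zero]

/-- The action of the embedded `Sp_{2m}`. -/
theorem iota_conj (g : symplecticGroup (Fin m) F) (y : Fin m ⊕ Fin m → F) (β : F) :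
    iota g * sA (y, β) * (iota g)⁻¹ = sA (act g y, β + Q0 y + Q0 (act g y)) := by
  simp only [sA]
  rw [Et_conj (form_inc_a₀ _), act_iota_a₀, act_iota_inc]
  congr 1
  have := add_self' (Q0 (act g y))
  linear_combination -this

/-- The torus. -/
def torC (μ : F) : Matrix (Fin (m + 1)) (Fin (m + 1)) F := Matrix.diagonal (Fin.cons μ⁻¹ (fun _ => 1))

/-- The inverse of the torus block. -/
def torD (μ : F) : Matrix (Fin (m + 1)) (Fin (m + 1)) F := Matrix.diagonal (Fin.cons μ (fun _ => 1))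

theorem torDC {μ : F} (hμ : μ ≠ 0) : torD (m := m) μ * torC μ = 1 := by
  rw [torD, torC, Matrix.diagonal_mul_diagonal, ← Matrix.diagonal_one]
  congr 1
  funext i
  refine Fin.cases ?_ (fun j => ?_) i
  · simp [hμ]
  · simp

/-- The torus element. -/
def tor {μ : F} (hμ : μ ≠ 0) : symplecticGroup (Fin (m + 1)) F :=
  Cfsg.Agent.Lib.MinDeg.SpSiegel.levi (torDC hμ)

theorem act_tor_inl {μ : F} (hμ : μ ≠ 0) (x : Fin (m + 1) ⊕ Fin (m + 1) → F) (i : Fin (m + 1)) :
    act (tor hμ) x (.inl i) = ((Fin.cons μ⁻¹ (fun _ => 1) : Fin (m + 1) → F) i) * x (.inl i) := by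
  have h1 := congrFun (Cfsg.Agent.Lib.MinDeg.SpSiegel.aa_levi (torDC hμ) x) i
  have h2 : (torC μ *ᵥ aa x) i = ((Fin.cons μ⁻¹ (fun _ => 1) : Fin (m + 1) → F) i) * x (.inl i) := by
    rw [torC, Matrix.mulVec_diagonal]
    rfl
  rw [← h2]
  exact h1

theorem act_tor_inr {μ : F} (hμ : μ ≠ 0) (x : Fin (m + 1) ⊕ Fin (m + 1) → F) (i : Fin (m + 1)) :
    act (tor hμ) x (.inr i) = ((Fin.cons μ (fun _ => 1) : Fin (m + 1) → F) i) * x (.inr i) := by
  have h1 := congrFun (Cfsg.Agent.Lib.MinDeg.SpSiegel.bb_levi (torDC hμ) x) i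
  have h2 : ((torD μ)ᵀ *ᵥ bb x) i = ((Fin.cons μ (fun _ => 1) : Fin (m + 1) → F) i) * x (.inr i) := by
    rw [torD, Matrix.diagonal_transpose, Matrix.mulVec_diagonal]
    rfl
  rw [← h2]
  exact h1

theorem act_tor_a₀ {μ : F} (hμ : μ ≠ 0) : act (tor hμ) (a₀ m F) = μ • a₀ m F := by
  funext i
  rcases i with i | i
  · rw [act_tor_inl]
    refine Fin.cases ?_ (fun j => ?_) i
    · simp
    · simp [a₀]
  · rw [act_tor_inr]
    refine Fin.cases ?_ (fun j => ?_) i
    · simp
    · simp [a₀]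

theorem act_tor_inc {μ : F} (hμ : μ ≠ 0) (y : Fin m ⊕ Fin m → F) : act (tor hμ) (inc y) = inc y := by
  funext i
  rcases i with i | i
  · rw [act_tor_inl]
    refine Fin.cases ?_ (fun j => ?_) i
    · simp
    · simp [inc]
  · rw [act_tor_inr]
    refine Fin.cases ?_ (fun j => ?_) i
    · simp
    · simp [inc]

/-- The action of the torus. -/
theorem tor_conj {μ : F} (hμ : μ ≠ 0) (y : Fin m ⊕ Fin m → F) (β : F) :
    tor hμ * sA (y, β) * (tor hμ)⁻¹ = sA (μ • y, μ ^ 2 * β) := by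
  simp only [sA]
  rw [Et_conj (form_inc_a₀ _), act_tor_a₀, act_tor_inc, Et_smul (form_inc_a₀ _), ← inc_smul, Q0_smul]
  congr 1
  ring

end

end Cfsg.Agent.Lib.MinDeg.SpEven.Coord
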