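import Mathlib
import Cfsg.Agent.Lib.MinDeg.SpEven.Coord
import Cfsg.Agent.Lib.MinDeg.Weights

/-!
# Characters of the Eichler group `A = V_m × F`, `q` even

The characters `chi c u`, `c ≠ 0`, and `chi0 u`; the action of the normaliser on them; the Gauss
sum of the quadratic forms `Qu u` and the count of the weights.
-/

set_option autoImplicit false
set_option linter.unusedSectionVars false
set_option linter.unusedSimpArgs false
set_option linter.unusedVariables false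

namespace Cfsg.Agent.Lib.MinDeg.SpEven.Chars

open Matrix Cfsg Cfsg.Agent.Lib.Classical.Symp.Basic
open Cfsg.Agent.Lib.Fusion.PSp.Basic
open Cfsg.Agent.Lib.MinDeg.SpEven.Psi Cfsg.Agent.Lib.MinDeg.SpEven.Coord
open Cfsg.Agent.Lib.MinDeg.Weights

variable {F : Type*} [Field F] [Fintype F] [DecidableEq F] [CharP F 2] {m : ℕ}

/-- The properties of the trace character. -/
structure IsPsi (ψ : AddChar F ℂ) : Prop where
  ne : ∃ x, ψ x ≠ 1
  wp : ∀ t, ψ (t ^ 2 + t) = 1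
  ex : ∀ t, ψ t = 1 → ∃ ν, ν ^ 2 + ν = t
  pm : ∀ t, ψ t = 1 ∨ ψ t = -1

theorem exists_isPsi : ∃ ψ : AddChar F ℂ, IsPsi ψ := by
  obtain ⟨ψ, h1, h2, h3, h4⟩ := exists_psi0 (F := F)
  exact ⟨ψ, ⟨h1, h2, h3, h4⟩⟩

variable {ψ : AddChar F ℂ}

theorem IsPsi.mul_self (h : IsPsi ψ) (t : F) : ψ t * ψ t = 1 := by
  rw [← AddChar.map_add_eq_mul, add_self', AddChar.map_zero_eq_one]

theorem IsPsi.sq (h : IsPsi ψ) (t : F) : ψ (t ^ 2) = ψ t := by
  have h1 := h.wp t
  rw [AddChar.map_add_eq_mul] at h1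
  have h2 := h.mul_self t
  have h3 : ψ t ≠ 0 := by
    intro h4
    rw [h4, zero_mul] at h2
    exact zero_ne_one h2
  apply mul_right_cancel₀ h3
  rw [h1, h2]

theorem IsPsi.add_eq_one (h : IsPsi ψ) {a b : F} (e : ψ a = ψ b) : ψ (a + b) = 1 := by
  rw [AddChar.map_add_eq_mul, e, h.mul_self]

theorem exists_form_eq {u : Fin m ⊕ Fin m → F} (hu : u ≠ 0) (t : F) :
    ∃ y, sympForm m F y u = t := by
  have h1 : ∃ y, sympForm m F y u ≠ 0 := by
    by_contra hc
    push Not at hc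
    apply hu
    exact sympBilin_nondegenerate.1 u (fun y => by
      show sympForm m F u y = 0
      rw [B_swap, hc y, neg_zero])
  obtain ⟨y, hy⟩ := h1
  refine ⟨(t / sympForm m F y u) • y, ?_⟩
  rw [B_smul_left]
  field_simp

/-! ### The characters -/

/-- The character `y ↦ ψ (B y u)`. -/
def dotC (ψ : AddChar F ℂ) (u : Fin m ⊕ Fin m → F) : AddChar (Fin m ⊕ Fin m → F) ℂ where
  toFun y := ψ (sympForm m F y u)
  map_zero_eq_one' := by simp [B_zero_left]
  map_add_eq_mul' := by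
    intro a b
    rw [B_add_left, AddChar.map_add_eq_mul]

@[simp] theorem dotC_apply (u y : Fin m ⊕ Fin m → F) : dotC ψ u y = ψ (sympForm m F y u) := rfl

theorem dotC_ne (h : IsPsi ψ) {u : Fin m ⊕ Fin m → F} (hu : u ≠ 0) : dotC ψ u ≠ 0 := by
  intro hc
  obtain ⟨x, hx⟩ := h.ne
  obtain ⟨y, hy⟩ := exists_form_eq hu x
  apply hx
  have h1 : dotC ψ u y = (0 : AddChar (Fin m ⊕ Fin m → F) ℂ) y := by rw [hc]
  rw [dotC_apply, hy] at h1
  rw [h1]
  rfl

/-- The characters nontrivial on the centre. -/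
def chi (ψ : AddChar F ℂ) (c : F) (u : Fin m ⊕ Fin m → F) :
    AddChar ((Fin m ⊕ Fin m → F) × F) ℂ where
  toFun p := ψ (c * (p.2 + (sympForm m F p.1 u) ^ 2))
  map_zero_eq_one' := by simp [B_zero_left]
  map_add_eq_mul' := by
    intro a b
    rw [← AddChar.map_add_eq_mul]
    congr 1
    rw [Prod.snd_add, Prod.fst_add, B_add_left, Psi.add_sq']
    ring

@[simp] theorem chi_apply (c : F) (u y : Fin m ⊕ Fin m → F) (β : F) :
    chi ψ c u (y, β) = ψ (c * (β + (sympForm m F y u) ^ 2)) := rfl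

/-- The characters trivial on the centre. -/
def chi0 (ψ : AddChar F ℂ) (u : Fin m ⊕ Fin m → F) :
    AddChar ((Fin m ⊕ Fin m → F) × F) ℂ where
  toFun p := ψ (sympForm m F p.1 u)
  map_zero_eq_one' := by simp [B_zero_left]
  map_add_eq_mul' := by
    intro a b
    rw [← AddChar.map_add_eq_mul, Prod.fst_add, B_add_left]

@[simp] theorem chi0_apply (u y : Fin m ⊕ Fin m → F) (β : F) :
    chi0 ψ u (y, β) = ψ (sympForm m F y u) := rfl

/-- A parametrisation of all characters. -/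
def phi (ψ : AddChar F ℂ) (c : F) (u : Fin m ⊕ Fin m → F) :
    AddChar ((Fin m ⊕ Fin m → F) × F) ℂ where
  toFun p := ψ (c * p.2) * ψ (sympForm m F p.1 u)
  map_zero_eq_one' := by simp [B_zero_left]
  map_add_eq_mul' := by
    intro a b
    rw [Prod.snd_add, Prod.fst_add, B_add_left, mul_add, AddChar.map_add_eq_mul,
      AddChar.map_add_eq_mul]
    ring

@[simp] theorem phi_apply (c : F) (u y : Fin m ⊕ Fin m → F) (β : F) :
    phi ψ c u (y, β) = ψ (c * β) * ψ (sympForm m F y u) := rfl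

theorem phi_inj (h : IsPsi ψ) {c c' : F} {u u' : Fin m ⊕ Fin m → F}
    (e : phi ψ c u = phi ψ c' u') : c = c' ∧ u = u' := by
  constructor
  · have h1 : c + c' = 0 := by
      apply mul_char_inj h.ne
      intro t
      have h2 := DFunLike.congr_fun e (0, t)
      simp only [phi_apply, B_zero_left, AddChar.map_zero_eq_one, mul_one] at h2
      rw [add_mul]
      exact h.add_eq_one h2
    have h2 := add_self' c'
    exact add_right_cancel (h1.trans h2.symm)
  · by_contra hne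
    have hsub : u - u' ≠ 0 := sub_ne_zero.mpr hne
    obtain ⟨x, hx⟩ := h.ne
    obtain ⟨y, hy⟩ := exists_form_eq hsub x
    apply hx
    have h2 := DFunLike.congr_fun e (y, 0)
    simp only [phi_apply, mul_zero, AddChar.map_zero_eq_one, one_mul] at h2
    rw [← hy, sub_eq_add_neg, B_add_right, B_neg_right, neg_eq']
    exact h.add_eq_one h2

theorem phi_surj (h : IsPsi ψ) (χ : AddChar ((Fin m ⊕ Fin m → F) × F) ℂ) :
    ∃ c u, phi ψ c u = χ := by
  have hinj : Function.Injective (fun p : F × (Fin m ⊕ Fin m → F) => phi ψ p.1 p.2) := by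
    rintro ⟨c, u⟩ ⟨c', u'⟩ e
    obtain ⟨h1, h2⟩ := phi_inj h e
    exact Prod.ext h1 h2
  have hcard : Nat.card (F × (Fin m ⊕ Fin m → F)) =
      Nat.card (AddChar ((Fin m ⊕ Fin m → F) × F) ℂ) := by
    rw [Nat.card_eq_fintype_card, Nat.card_eq_fintype_card, AddChar.card_eq, Fintype.card_prod,
      Fintype.card_prod, mul_comm]
  obtain ⟨⟨c, u⟩, hp⟩ := ((Nat.bijective_iff_injective_and_card _).mpr ⟨hinj, hcard⟩).2 χ
  exact ⟨c, u, hp⟩

theorem exists_chi0 (h : IsPsi ψ) (χ : AddChar ((Fin m ⊕ Fin m → F) × F) ℂ)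
    (hχ : ∀ β : F, χ ((0 : Fin m ⊕ Fin m → F), β) = 1) : ∃ u, χ = chi0 ψ u := by
  obtain ⟨c, u, rfl⟩ := phi_surj h χ
  have hc : c = 0 := by
    apply mul_char_inj h.ne
    intro t
    have h2 := hχ t
    simpa [B_zero_left] using h2
  refine ⟨u, ?_⟩
  subst hc
  ext ⟨y, β⟩
  simp

theorem exists_chi (h : IsPsi ψ) (χ : AddChar ((Fin m ⊕ Fin m → F) × F) ℂ)
    (hχ : ∃ β : F, χ ((0 : Fin m ⊕ Fin m → F), β) ≠ 1) : ∃ c u, c ≠ 0 ∧ χ = chi ψ c u := by
  obtain ⟨c, u, rfl⟩ := phi_surj h χ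
  have hc : c ≠ 0 := by
    rintro rfl
    obtain ⟨β, hβ⟩ := hχ
    apply hβ
    simp [B_zero_left]
  obtain ⟨r, hr⟩ := exists_sqrt c
  have hr0 : r ≠ 0 := by
    rintro rfl
    apply hc
    rw [← hr]
    simp
  refine ⟨c, r⁻¹ • u, hc, ?_⟩
  ext ⟨y, β⟩
  rw [phi_apply, chi_apply, B_smul_right, ← h.sq (sympForm m F y u), ← AddChar.map_add_eq_mul]
  congr 1
  rw [← hr]
  field_simp

theorem chi_inj (h : IsPsi ψ) {c c' : F} {u u' : Fin m ⊕ Fin m → F} (hc : c ≠ 0)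
    (e : chi ψ c u = chi ψ c' u') : c = c' ∧ u = u' := by
  have hcc : c = c' := by
    have h1 : c + c' = 0 := by
      apply mul_char_inj h.ne
      intro t
      have h2 := DFunLike.congr_fun e (0, t)
      simp only [chi_apply, B_zero_left, ne_eq, OfNat.ofNat_ne_zero, not_false_eq_true, zero_pow,
        add_zero] at h2
      rw [add_mul]
      exact h.add_eq_one h2
    have h2 := add_self' c'
    exact add_right_cancel (h1.trans h2.symm)
  subst hcc
  refine ⟨rfl, ?_⟩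
  by_contra hne
  have hsub : u - u' ≠ 0 := sub_ne_zero.mpr hne
  obtain ⟨x, hx⟩ := h.ne
  obtain ⟨s, hs⟩ := exists_sqrt (c⁻¹ * x)
  obtain ⟨y, hy⟩ := exists_form_eq hsub s
  apply hx
  have h2 := DFunLike.congr_fun e (y, 0)
  simp only [chi_apply, zero_add] at h2
  have h3 := h.add_eq_one h2
  have h4 : c * sympForm m F y u ^ 2 + c * sympForm m F y u' ^ 2 = x := by
    rw [← mul_add, ← Psi.add_sq']
    have h5 : sympForm m F y u + sympForm m F y u' = s := by
      rw [← hy, sub_eq_add_neg, B_add_right, B_neg_right, neg_eq']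
    rw [h5, hs]
    field_simp
  rwa [h4] at h3

theorem chi0_inj (h : IsPsi ψ) {u u' : Fin m ⊕ Fin m → F}
    (e : chi0 ψ u = chi0 ψ u') : u = u' := by
  by_contra hne
  have hsub : u - u' ≠ 0 := sub_ne_zero.mpr hne
  obtain ⟨x, hx⟩ := h.ne
  obtain ⟨y, hy⟩ := exists_form_eq hsub x
  apply hx
  have h2 := DFunLike.congr_fun e (y, 0)
  simp only [chi0_apply] at h2
  rw [← hy, sub_eq_add_neg, B_add_right, B_neg_right, neg_eq']
  exact h.add_eq_one h2

/-! ### The quadratic forms and their Gauss sums -/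

/-- The quadratic form attached to `u`. -/
def Qu (u d : Fin m ⊕ Fin m → F) : F := Q0 d + (sympForm m F d u) ^ 2

theorem Qu_add (u d e : Fin m ⊕ Fin m → F) : Qu u (d + e) = Qu u d + Qu u e + sympForm m F e d := by
  simp only [Qu]
  rw [Q0_add, B_add_left, Psi.add_sq']
  ring

theorem Qu_smul (u d : Fin m ⊕ Fin m → F) (c : F) : Qu u (c • d) = c ^ 2 * Qu u d := by
  simp only [Qu]
  rw [Q0_smul, B_smul_left]
  ring

theorem Qu_zero (u : Fin m ⊕ Fin m → F) : Qu u 0 = 0 := by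
  simp [Qu, Q0_zero, B_zero_left]

theorem card_vec : Fintype.card (Fin m ⊕ Fin m → F) = Fintype.card F ^ (2 * m) := by
  rw [Fintype.card_fun, Fintype.card_sum, Fintype.card_fin, two_mul]

/-- The set `D(u)`. -/
noncomputable def DD (ψ : AddChar F ℂ) (u : Fin m ⊕ Fin m → F) : Finset (Fin m ⊕ Fin m → F) := by
  classical
  exact Finset.univ.filter fun d => ψ (Qu u d) = 1

theorem mem_DD {u d : Fin m ⊕ Fin m → F} : d ∈ DD ψ u ↔ ψ (Qu u d) = 1 := by
  classical
  simp [DD]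

/-- The Gauss sum. -/
theorem gauss_sq (h : IsPsi ψ) (u : Fin m ⊕ Fin m → F) :
    (∑ d, ψ (Qu u d)) * (∑ d, ψ (Qu u d)) = ((Fintype.card F ^ (2 * m) : ℕ) : ℂ) := by
  classical
  rw [Finset.sum_mul]
  have e1 : ∀ d : Fin m ⊕ Fin m → F, ψ (Qu u d) * (∑ e, ψ (Qu u e)) =
      ∑ e, ψ (Qu u e) * dotC ψ e d := by
    intro d
    rw [← Equiv.sum_comp (Equiv.addRight d) (fun e => ψ (Qu u e)), Finset.mul_sum]
    refine Finset.sum_congr rfl fun e _ => ?_
    simp only [Equiv.coe_addRight, dotC_apply]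
    rw [Qu_add, ← AddChar.map_add_eq_mul, ← AddChar.map_add_eq_mul]
    congr 1
    linear_combination add_self' (Qu u d)
  simp_rw [e1]
  rw [Finset.sum_comm]
  simp_rw [← Finset.mul_sum]
  rw [Finset.sum_eq_single (0 : Fin m ⊕ Fin m → F)]
  · rw [Qu_zero, AddChar.map_zero_eq_one, one_mul]
    simp only [dotC_apply, B_zero_right, AddChar.map_zero_eq_one]
    rw [Finset.sum_const, Finset.card_univ, card_vec]
    simp
  · intro e _ he
    rw [AddChar.sum_eq_zero_iff_ne_zero.mpr (dotC_ne h he), mul_zero]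
  · simp

theorem gauss_add (h : IsPsi ψ) (u : Fin m ⊕ Fin m → F) :
    (∑ d, ψ (Qu u d)) + ((Fintype.card F ^ (2 * m) : ℕ) : ℂ) = 2 * ((DD ψ u).card : ℂ) := by
  classical
  have h1 : ((Fintype.card F ^ (2 * m) : ℕ) : ℂ) = ∑ _d : Fin m ⊕ Fin m → F, (1 : ℂ) := by
    rw [Finset.sum_const, Finset.card_univ, card_vec]
    simp
  rw [h1, ← Finset.sum_add_distrib]
  have h2 : ∀ d : Fin m ⊕ Fin m → F, ψ (Qu u d) + 1 = if d ∈ DD ψ u then 2 else 0 := by
    intro d
    by_cases hd : d ∈ DD ψ u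
    · rw [if_pos hd, mem_DD.mp hd]
      norm_num
    · rw [if_neg hd]
      rcases h.pm (Qu u d) with h3 | h3
      · exact absurd (mem_DD.mpr h3) hd
      · rw [h3]
        ring
  simp_rw [h2]
  rw [Finset.sum_ite_mem, Finset.univ_inter, Finset.sum_const, nsmul_eq_mul]
  ring

/-- **The count of `D(u)`.** -/
theorem card_DD (h : IsPsi ψ) (u : Fin m ⊕ Fin m → F) :
    Fintype.card F ^ (2 * m) ≤ 2 * (DD ψ u).card + Fintype.card F ^ m := by
  have h1 := gauss_sq h u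
  have h2 := gauss_add h u
  have h3 : (∑ d, ψ (Qu u d)) = 2 * ((DD ψ u).card : ℂ) - ((Fintype.card F ^ (2 * m) : ℕ) : ℂ) := by
    rw [← h2]
    ring
  rw [h3] at h1
  have h4 : (((2 * ((DD ψ u).card : ℤ) - ((Fintype.card F ^ (2 * m) : ℕ) : ℤ)) *
      (2 * ((DD ψ u).card : ℤ) - ((Fintype.card F ^ (2 * m) : ℕ) : ℤ)) : ℤ) : ℂ) =
      (((Fintype.card F ^ (2 * m) : ℕ) : ℤ) : ℂ) := by
    push_cast
    push_cast at h1
    exact h1
  have h5 := Int.cast_injective h4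
  have h6 : ((Fintype.card F ^ (2 * m) : ℕ) : ℤ) = ((Fintype.card F ^ m : ℕ) : ℤ) * ((Fintype.card F ^ m : ℕ) : ℤ) := by
    push_cast
    ring
  rw [h6] at h5
  have h7 : ((2 * ((DD ψ u).card : ℤ) - ((Fintype.card F ^ m : ℕ) : ℤ) * ((Fintype.card F ^ m : ℕ) : ℤ)) - ((Fintype.card F ^ m : ℕ) : ℤ)) *
      ((2 * ((DD ψ u).card : ℤ) - ((Fintype.card F ^ m : ℕ) : ℤ) * ((Fintype.card F ^ m : ℕ) : ℤ)) + ((Fintype.card F ^ m : ℕ) : ℤ)) = 0 := by
    linear_combination h5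
  have h8 : ((Fintype.card F ^ (2 * m) : ℕ) : ℤ) ≤ ((2 * (DD ψ u).card + Fintype.card F ^ m : ℕ) : ℤ) := by
    rw [h6]
    push_cast
    push_cast at h7
    rcases mul_eq_zero.mp h7 with h9 | h9
    · have : (0 : ℤ) ≤ (Fintype.card F : ℤ) ^ m := by positivity
      linarith
    · linarith
  exact_mod_cast h8

/-! ### Representations -/

section Rep
variable {U : Type*} [AddCommGroup U] [Module ℂ U]
  (ρ : Representation ℂ (symplecticGroup (Fin (m + 1)) F) U)

/-- The action of `A`. -/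
def rA : (Fin m ⊕ Fin m → F) × F → Module.End ℂ U := fun p => ρ (sA p)

theorem rA_addAct : AddAct (rA ρ) :=
  ⟨by simp [rA, sA_zero], fun a b => by simp [rA, sA_add]⟩

/-- The action of the centre of `A`. -/
def rZ : F → Module.End ℂ U := fun β => ρ (sA ((0 : Fin m ⊕ Fin m → F), β))

theorem rZ_addAct : AddAct (rZ ρ) := by
  refine ⟨?_, fun a b => ?_⟩
  · show ρ (sA ((0 : Fin m ⊕ Fin m → F), (0 : F))) = 1
    exact (congrArg ρ sA_zero).trans (map_one ρ)
  · show ρ (sA ((0 : Fin m ⊕ Fin m → F), a + b)) = ρ (sA ((0 : Fin m ⊕ Fin m → F), a)) * ρ (sA ((0 : Fin m ⊕ Fin m → F), b))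
    rw [← map_mul, ← sA_add]
    simp

/-- The fixed points of the centre. -/
def TT : Submodule ℂ U := Wt (rZ ρ) 1

theorem mem_TT {v : U} : v ∈ TT ρ ↔ ∀ β : F, ρ (sA ((0 : Fin m ⊕ Fin m → F), β)) v = v := by
  show (∀ β, rZ ρ β v = (1 : AddChar F ℂ) β • v) ↔ _
  simp [rZ]

theorem sA_comm (p p' : (Fin m ⊕ Fin m → F) × F) : sA p * sA p' = sA p' * sA p := by
  rw [← sA_add, ← sA_add]
  exact congrArg sA (add_comm p p')

theorem rA_TT (p : (Fin m ⊕ Fin m → F) × F) (v : U) (hv : v ∈ TT ρ) : rA ρ p v ∈ TT ρ := by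
  rw [mem_TT] at hv ⊢
  intro β
  show ρ _ (ρ (sA p) v) = ρ (sA p) v
  rw [← Module.End.mul_apply, ← map_mul, sA_comm, map_mul, Module.End.mul_apply, hv β]

/-- The translation of weights. -/
theorem wt_translate {χ χ' : AddChar ((Fin m ⊕ Fin m → F) × F) ℂ}
    {h : symplecticGroup (Fin (m + 1)) F} {f : (Fin m ⊕ Fin m → F) × F → (Fin m ⊕ Fin m → F) × F}
    (hh : ∀ p, h * sA p * h⁻¹ = sA (f p)) (hχ : ∀ p, χ (f p) = χ' p) {v : U}
    (hv : v ∈ Wt (rA ρ) χ) : ρ h⁻¹ v ∈ Wt (rA ρ) χ' := by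
  intro p
  show ρ (sA p) (ρ h⁻¹ v) = _
  have e : sA p * h⁻¹ = h⁻¹ * sA (f p) := by
    rw [← hh p]
    group
  rw [← Module.End.mul_apply, ← map_mul, e, map_mul, Module.End.mul_apply]
  have h1 : ρ (sA (f p)) v = χ (f p) • v := hv (f p)
  rw [h1, map_smul, hχ]

theorem inv_apply_ne_zero (h : symplecticGroup (Fin (m + 1)) F) {v : U} (hv : v ≠ 0) : ρ h⁻¹ v ≠ 0 := by
  intro h0
  apply hv
  have h4 : ρ h (ρ h⁻¹ v) = v := by
    rw [← Module.End.mul_apply, ← map_mul, mul_inv_cancel, map_one]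
    rfl
  rw [← h4, h0, map_zero]

theorem wt_ne_bot_translate {χ χ' : AddChar ((Fin m ⊕ Fin m → F) × F) ℂ}
    {h : symplecticGroup (Fin (m + 1)) F} {f : (Fin m ⊕ Fin m → F) × F → (Fin m ⊕ Fin m → F) × F}
    (hh : ∀ p, h * sA p * h⁻¹ = sA (f p)) (hχ : ∀ p, χ (f p) = χ' p)
    (hw : Wt (rA ρ) χ ≠ ⊥) : Wt (rA ρ) χ' ≠ ⊥ := by
  obtain ⟨v, hv, hv0⟩ := Submodule.exists_mem_ne_zero_of_ne_bot hw
  intro hbot
  have h1 := wt_translate ρ hh hχ hv
  rw [hbot] at h1
  exact inv_apply_ne_zero ρ h hv0 ((Submodule.mem_bot ℂ).mp h1)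

/-- The torus moves `c`. -/
theorem wt_tor (h : IsPsi ψ) {c c' : F} {u : Fin m ⊕ Fin m → F} (hc : c ≠ 0) (hc' : c' ≠ 0)
    (hw : Wt (rA ρ) (chi ψ c u) ≠ ⊥) : Wt (rA ρ) (chi ψ c' u) ≠ ⊥ := by
  obtain ⟨μ, hμ⟩ := exists_sqrt (c' / c)
  have hμ0 : μ ≠ 0 := by
    rintro rfl
    have h1 : c' / c ≠ 0 := div_ne_zero hc' hc
    apply h1
    rw [← hμ]
    simp
  refine wt_ne_bot_translate ρ (h := tor hμ0) (f := fun p => (μ • p.1, μ ^ 2 * p.2)) ?_ ?_ hw
  · rintro ⟨y, β⟩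
    exact tor_conj hμ0 y β
  · rintro ⟨y, β⟩
    have hμ' : c * μ ^ 2 = c' := by
      rw [hμ]
      field_simp
    simp only [chi_apply]
    rw [B_smul_left]
    congr 1
    rw [← hμ']
    ring

/-- The Eichler transvections move `u`. -/
theorem chi_tr (u w y : Fin m ⊕ Fin m → F) (c β ν : F) (hν : ν ^ 2 = Qu u w + 1) :
    chi ψ c u (act (tr w 1) y, β + Q0 y + Q0 (act (tr w 1) y)) = chi ψ c (u + ν • w) (y, β) := by
  simp only [chi_apply]
  congr 2
  rw [act_tr, one_mul, Q0_add, Q0_smul, B_add_left, B_smul_left, B_smul_left, B_add_right, B_smul_right,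
    Psi.add_sq', Psi.add_sq', form_swap' w y]
  have h1 := add_self' (Q0 y)
  simp only [Qu] at hν
  linear_combination h1 - (sympForm m F y w) ^ 2 * hν

theorem wt_shift (h : IsPsi ψ) {c : F} {u d : Fin m ⊕ Fin m → F} (hd : ψ (Qu u d) = 1)
    (hw : Wt (rA ρ) (chi ψ c u) ≠ ⊥) : Wt (rA ρ) (chi ψ c (u + d)) ≠ ⊥ := by
  by_cases hd0 : d = 0
  · rw [hd0, add_zero]
    exact hw
  -- a nonzero solution of `ν² + ν = Qu u d`
  obtain ⟨ν', hν'0, hν'⟩ : ∃ ν' : F, ν' ≠ 0 ∧ ν' ^ 2 + ν' = Qu u d := by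
    by_cases hQ : Qu u d = 0
    · refine ⟨1, one_ne_zero, ?_⟩
      rw [hQ, one_pow]
      exact add_self' 1
    · obtain ⟨ν, hν⟩ := h.ex _ hd
      refine ⟨ν, ?_, hν⟩
      rintro rfl
      apply hQ
      rw [← hν]
      simp
  obtain ⟨μ, hμ⟩ := exists_sqrt ν'
  have hμ0 : μ ≠ 0 := by
    rintro rfl
    apply hν'0
    rw [← hμ]
    simp
  let w := μ⁻¹ • d
  have hμw : μ • w = d := by
    simp only [w, smul_smul, mul_inv_cancel₀ hμ0, one_smul]
  have hν : μ ^ 2 = Qu u w + 1 := by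
    simp only [w]
    rw [Qu_smul, ← hν', ← hμ]
    field_simp
    linear_combination - add_self' (1 : F)
  have hgoal : chi ψ c (u + d) = chi ψ c (u + μ • w) := by rw [hμw]
  rw [hgoal]
  refine wt_ne_bot_translate ρ (h := iota (tr w 1))
    (f := fun p => (act (tr w 1) p.1, p.2 + Q0 p.1 + Q0 (act (tr w 1) p.1))) ?_ ?_ hw
  · rintro ⟨y, β⟩
    exact iota_conj _ y β
  · rintro ⟨y, β⟩
    exact chi_tr u w y c β μ hν

/-! ### The count -/

/-- The set of weights obtained from one of them. -/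
noncomputable def SS (ψ : AddChar F ℂ) (u : Fin m ⊕ Fin m → F) : Finset (AddChar ((Fin m ⊕ Fin m → F) × F) ℂ) :=
  ((Finset.univ.filter (fun c : F => c ≠ 0)) ×ˢ DD ψ u).image (fun p => chi ψ p.1 (u + p.2))

theorem card_SS (h : IsPsi ψ) (u : Fin m ⊕ Fin m → F) :
    (SS ψ u).card = (Fintype.card F - 1) * (DD ψ u).card := by
  classical
  rw [SS, Finset.card_image_of_injOn, Finset.card_product]
  · congr 1
    rw [Finset.filter_ne', Finset.card_erase_of_mem (Finset.mem_univ _), Finset.card_univ]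
  · rintro ⟨c, d⟩ hp ⟨c', d'⟩ hp' e
    simp only [Finset.coe_product, Set.mem_prod, Finset.mem_coe, Finset.mem_filter, Finset.mem_univ,
      true_and] at hp
    obtain ⟨h1, h2⟩ := chi_inj h hp.1 e
    have h3 : d = d' := add_left_cancel h2
    simp only [h1, h3]

/-- A general count of the weights inside an invariant subspace. -/
theorem card_le_of_occurs {A W : Type*} [AddCommGroup A] [Fintype A] [AddCommGroup W] [Module ℂ W]
    [FiniteDimensional ℂ W] {r : A → Module.End ℂ W} (K : Submodule ℂ W)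
    (hK : ∀ a, ∀ v ∈ K, r a v ∈ K) (S : Finset (AddChar A ℂ))
    (hS : ∀ χ ∈ S, ∃ v ∈ K, v ≠ 0 ∧ v ∈ Wt r χ) : S.card ≤ Module.finrank ℂ K := by
  apply card_le_of_ne_bot (r := restr r K hK)
  intro χ hχ hbot
  obtain ⟨v, hvK, hv0, hv⟩ := hS χ hχ
  have h1 : (⟨v, hvK⟩ : K) ∈ Wt (restr r K hK) χ := by
    intro a
    apply Subtype.ext
    exact hv a
  rw [hbot] at h1
  exact hv0 (congrArg Subtype.val ((Submodule.mem_bot ℂ).mp h1))

/-- The projection to `TT` commutes with `A`. -/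
theorem proj_comm (p : (Fin m ⊕ Fin m → F) × F) (v : U) :
    proj (rZ ρ) 1 (rA ρ p v) = rA ρ p (proj (rZ ρ) 1 v) := by
  rw [proj_apply, proj_apply, map_smul, map_sum]
  congr 1
  refine Finset.sum_congr rfl fun β _ => ?_
  rw [map_smul]
  congr 1
  show ρ _ (ρ _ v) = ρ _ (ρ _ v)
  rw [← Module.End.mul_apply, ← Module.End.mul_apply, ← map_mul, ← map_mul, sA_comm]

/-- **The count.** -/
theorem count_le [FiniteDimensional ℂ U] (h : IsPsi ψ) {c : F} {u : Fin m ⊕ Fin m → F} (hc : c ≠ 0)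
    (hw : Wt (rA ρ) (chi ψ c u) ≠ ⊥) :
    (Fintype.card F - 1) * (DD ψ u).card + Module.finrank ℂ (TT ρ) ≤ Module.finrank ℂ U := by
  classical
  let P := proj (rZ ρ) (1 : AddChar F ℂ)
  have hK : ∀ a, ∀ v ∈ LinearMap.ker P, rA ρ a v ∈ LinearMap.ker P := by
    intro a v hv
    rw [LinearMap.mem_ker] at hv ⊢
    show proj (rZ ρ) 1 _ = 0
    rw [proj_comm]
    have : proj (rZ ρ) 1 v = 0 := hv
    rw [this, map_zero]
  have h1 : (SS ψ u).card ≤ Module.finrank ℂ (LinearMap.ker P) := by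
    apply card_le_of_occurs _ hK
    intro χ hχ
    obtain ⟨⟨c', d⟩, hp, rfl⟩ := Finset.mem_image.mp hχ
    simp only [Finset.mem_product, Finset.mem_filter, Finset.mem_univ, true_and] at hp
    have h2 := wt_shift ρ h (mem_DD.mp hp.2) (wt_tor ρ h hc hp.1 hw)
    obtain ⟨v, hv, hv0⟩ := Submodule.exists_mem_ne_zero_of_ne_bot h2
    refine ⟨v, ?_, hv0, hv⟩
    rw [LinearMap.mem_ker]
    -- `v` is a weight vector of the centre
    let χZ : AddChar F ℂ := (chi ψ c' (u + d)).compAddMonoidHom (AddMonoidHom.inr _ _)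
    have hvZ : v ∈ Wt (rZ ρ) χZ := fun β => hv (0, β)
    refine proj_of_mem_ne hvZ ?_
    intro e
    have h3 : ∀ β : F, ψ (c' * β) = 1 := by
      intro β
      have h4 := DFunLike.congr_fun e β
      have h5 : χZ β = ψ (c' * (β + (sympForm m F 0 (u + d)) ^ 2)) := rfl
      rw [h5, B_zero_left] at h4
      simpa using h4.symm
    exact hp.1 (mul_char_inj h.ne h3)
  have h2 := LinearMap.finrank_range_add_finrank_ker P
  have h3 : Module.finrank ℂ (TT ρ) ≤ Module.finrank ℂ (LinearMap.range P) := by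
    apply Submodule.finrank_mono
    intro v hv
    exact ⟨v, proj_of_mem hv⟩
  rw [card_SS h] at h1
  omega

end Rep

end Cfsg.Agent.Lib.MinDeg.SpEven.Chars
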