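import Mathlib
import Cfsg.Agent.Lib.MinDeg.SpEven.Chars
import Cfsg.Agent.Lib.MinDeg.Weil.Odd
import Cfsg.Agent.Lib.Classical.Symp.Perfect
import Cfsg.Agent.Lib.Linalg.Bridge

/-!
# The fixed points of the centre of `A`, `q` even

Each character of the Siegel radical, in at least three variables, is trivial on the line of some
`z zᵀ` (Chevalley–Warning). So the fixed space `TT` of the centre carries a nontrivial action of
`A · Sp_{2m}`, and the induction hypothesis gives a lower bound of its dimension.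
-/

set_option autoImplicit false
set_option linter.unusedSectionVars false
set_option linter.unusedSimpArgs false
set_option linter.unusedVariables false

namespace Cfsg.Agent.Lib.MinDeg.SpEven.Fixed

open Matrix Cfsg Cfsg.Agent.Lib.Classical.Symp.Basic
open Cfsg.Agent.Lib.Fusion.PSp.Basic
open Cfsg.Agent.Lib.MinDeg.SpEven.Psi Cfsg.Agent.Lib.MinDeg.SpEven.Coord
open Cfsg.Agent.Lib.MinDeg.SpEven.Chars
open Cfsg.Agent.Lib.MinDeg.Weights
open Cfsg.Agent.Lib.MinDeg.SpSiegel
open Cfsg.Agent.Lib.MinDeg.Weil.Heis (aa bb mkV aa_mkV bb_mkV ext_ab sympForm_eq)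

variable {F : Type*} [Field F] [Fintype F] [DecidableEq F] [CharP F 2] {m n : ℕ}
variable {ψ : AddChar F ℂ}

/-! ### Chevalley–Warning for the characters of `symA` -/

/-- The standard symmetric matrices. -/
def Mt (t : F) (i j : Fin n) : symA n F :=
  ⟨Matrix.of fun a b => if (a = i ∧ b = j) ∨ (a = j ∧ b = i) then t else 0, by
    show (Matrix.of fun a b => if (a = i ∧ b = j) ∨ (a = j ∧ b = i) then t else 0)ᵀ = _
    ext a b
    simp only [transpose_apply, of_apply]
    by_cases h : (a = i ∧ b = j) ∨ (a = j ∧ b = i)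
    · rw [if_pos h, if_pos]
      tauto
    · rw [if_neg h, if_neg]
      tauto⟩

@[simp] theorem Mt_apply (t : F) (i j a b : Fin n) :
    (Mt t i j).1 a b = if (a = i ∧ b = j) ∨ (a = j ∧ b = i) then t else 0 := rfl

theorem Mt_add (t t' : F) (i j : Fin n) : Mt (t + t') i j = Mt t i j + Mt t' i j := by
  apply Subtype.ext
  ext a b
  show (Mt (t + t') i j).1 a b = (Mt t i j).1 a b + (Mt t' i j).1 a b
  simp only [Mt_apply]
  split_ifs <;> simp

theorem Mt_zero (i j : Fin n) : Mt (0 : F) i j = 0 := by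
  apply Subtype.ext
  ext a b
  show (Mt (0 : F) i j).1 a b = 0
  simp

/-- The upper triangle. -/
def Dn (n : ℕ) : Finset (Fin n × Fin n) := Finset.univ.filter fun p => p.1 ≤ p.2

theorem sym_decomp (Y : symA n F) : Y = ∑ p ∈ Dn n, Mt (Y.1 p.1 p.2) p.1 p.2 := by
  apply Subtype.ext
  ext a b
  have hsym : ∀ a b, Y.1 a b = Y.1 b a := fun a b => congrFun (congrFun Y.2 b) a
  rw [AddSubgroup.val_finsetSum, Matrix.sum_apply]
  simp only [Mt_apply]
  rcases le_total a b with hab | hab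
  · rw [Finset.sum_eq_single (a, b)]
    · simp
    · rintro ⟨i, j⟩ hp hne
      rw [if_neg]
      rintro (⟨rfl, rfl⟩ | ⟨rfl, rfl⟩)
      · exact hne rfl
      · simp only [Dn, Finset.mem_filter, Finset.mem_univ, true_and] at hp
        exact hne (by rw [le_antisymm hab hp])
    · intro h
      exact absurd (by simp [Dn, hab]) h
  · rw [Finset.sum_eq_single (b, a)]
    · simp [hsym a b]
    · rintro ⟨i, j⟩ hp hne
      rw [if_neg]
      rintro (⟨rfl, rfl⟩ | ⟨rfl, rfl⟩)
      · simp only [Dn, Finset.mem_filter, Finset.mem_univ, true_and] at hp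
        exact hne (by rw [le_antisymm hab hp])
      · exact hne rfl
    · intro h
      exact absurd (by simp [Dn, hab]) h

theorem addChar_sum {A ι : Type*} [AddCommMonoid A] (χ : AddChar A ℂ) (s : Finset ι) (f : ι → A) :
    χ (∑ i ∈ s, f i) = ∏ i ∈ s, χ (f i) := by
  classical
  induction s using Finset.induction_on with
  | empty => simp
  | insert a s ha ih => rw [Finset.sum_insert ha, Finset.prod_insert ha, AddChar.map_add_eq_mul, ih]

/-- The coefficients of a character of `symA`. -/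
theorem exists_coeff (h : IsPsi ψ) (χ : AddChar (symA n F) ℂ) :
    ∃ γ : Fin n × Fin n → F, ∀ Y : symA n F, χ Y = ψ (∑ p ∈ Dn n, γ p * Y.1 p.1 p.2) := by
  have h1 : ∀ p : Fin n × Fin n, ∃ γ : F, ∀ t : F, χ (Mt t p.1 p.2) = ψ (γ * t) := by
    intro p
    let χ' : AddChar F ℂ :=
      { toFun := fun t => χ (Mt t p.1 p.2)
        map_zero_eq_one' := by rw [Mt_zero, AddChar.map_zero_eq_one]
        map_add_eq_mul' := by
          intro a b
          rw [Mt_add, AddChar.map_add_eq_mul] }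
    exact exists_gamma h.ne χ'
  choose γ hγ using h1
  refine ⟨γ, fun Y => ?_⟩
  conv_lhs => rw [sym_decomp Y]
  rw [addChar_sum, addChar_sum]
  exact Finset.prod_congr rfl fun p _ => hγ p _

/-- The isotropic vector. -/
theorem exists_cw (hn : 3 ≤ n) (h : IsPsi ψ) (χ : AddChar (symA n F) ℂ) :
    ∃ z : Fin n → F, z ≠ 0 ∧ ∀ s : F, χ ⟨s • Matrix.vecMulVec z z, vecMulVec_mem z s⟩ = 1 := by
  classical
  obtain ⟨γ, hγ⟩ := exists_coeff h χ
  let f : MvPolynomial (Fin n) F :=
    ∑ p ∈ Dn n, MvPolynomial.C (γ p) * (MvPolynomial.X p.1 * MvPolynomial.X p.2)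
  have hdeg : f.totalDegree ≤ 2 := by
    apply MvPolynomial.totalDegree_finsetSum_le
    intro p _
    refine (MvPolynomial.totalDegree_mul _ _).trans ?_
    rw [MvPolynomial.totalDegree_C]
    refine (zero_add _).le.trans ?_
    refine (MvPolynomial.totalDegree_mul _ _).trans ?_
    rw [MvPolynomial.totalDegree_X, MvPolynomial.totalDegree_X]
  have hcard : f.totalDegree < Fintype.card (Fin n) := by
    rw [Fintype.card_fin]
    omega
  have hdvd := char_dvd_card_solutions 2 hcard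
  have heval : ∀ z : Fin n → F, MvPolynomial.eval z f = ∑ p ∈ Dn n, γ p * (z p.1 * z p.2) := by
    intro z
    simp only [f, map_sum, map_mul, MvPolynomial.eval_C, MvPolynomial.eval_X]
  have h0 : MvPolynomial.eval (0 : Fin n → F) f = 0 := by
    rw [heval]
    simp
  let s0 : { x : Fin n → F // MvPolynomial.eval x f = 0 } := ⟨0, h0⟩
  have hpos : 0 < Fintype.card { x : Fin n → F // MvPolynomial.eval x f = 0 } :=
    Fintype.card_pos_iff.mpr ⟨s0⟩
  have h2 : 1 < Fintype.card { x : Fin n → F // MvPolynomial.eval x f = 0 } := by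
    obtain ⟨k, hk⟩ := hdvd
    omega
  obtain ⟨z, hz⟩ := Fintype.exists_ne_of_one_lt_card h2 s0
  refine ⟨z.1, fun hc => hz (Subtype.ext hc), fun s => ?_⟩
  rw [hγ]
  have h3 : ∑ p ∈ Dn n, γ p * (s • Matrix.vecMulVec z.1 z.1) p.1 p.2 = s * MvPolynomial.eval z.1 f := by
    rw [heval, Finset.mul_sum]
    refine Finset.sum_congr rfl fun p _ => ?_
    simp only [Matrix.smul_apply, smul_eq_mul, vecMulVec_apply]
    ring
  show ψ (∑ p ∈ Dn n, γ p * (s • Matrix.vecMulVec z.1 z.1) p.1 p.2) = 1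
  rw [h3, z.2, mul_zero, AddChar.map_zero_eq_one]

/-! ### The Siegel radical inside `A · Sp_{2m}` -/

/-- The block of a symmetric matrix. -/
def blk (Y : symA (m + 1) F) : symA m F :=
  ⟨Y.1.submatrix Fin.succ Fin.succ, by
    show (Y.1.submatrix Fin.succ Fin.succ)ᵀ = _
    rw [Matrix.transpose_submatrix, Y.2]⟩

/-- The column of a symmetric matrix. -/
def col (Y : symA (m + 1) F) : Fin m → F := fun i => Y.1 i.succ 0

theorem act_sA_inl (p : (Fin m ⊕ Fin m → F) × F) (x : Fin (m + 1) ⊕ Fin (m + 1) → F) :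
    act (sA p) x (.inl 0) = x (.inl 0) := by
  simp only [sA]
  rw [act_Et (form_inc_a₀ _)]
  simp

theorem act_sA_inr (p : (Fin m ⊕ Fin m → F) × F) (x : Fin (m + 1) ⊕ Fin (m + 1) → F) :
    act (sA p) x (.inr 0) = x (.inr 0) + sympForm m F (res x) p.1 + (p.2 + Q0 p.1) * x (.inl 0) := by
  simp only [sA]
  rw [act_Et (form_inc_a₀ _), form_apply_a₀, form_split]
  simp [neg_eq']

theorem res_act_sA (p : (Fin m ⊕ Fin m → F) × F) (x : Fin (m + 1) ⊕ Fin (m + 1) → F) :
    res (act (sA p) x) = res x + x (.inl 0) • p.1 := by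
  simp only [sA]
  rw [act_Et (form_inc_a₀ _), form_apply_a₀]
  simp [neg_eq', res_add, res_smul, add_zero]

theorem tauY_decomp (Y : symA (m + 1) F) :
    tauY Y = sA (mkV 0 (col Y), Y.1 0 0) * iota (tauY (blk Y)) := by
  have hsym : ∀ a b, Y.1 a b = Y.1 b a := fun a b => congrFun (congrFun Y.2 b) a
  apply Cfsg.Agent.Lib.Fusion.PSp.Basic.sp_ext
  intro x
  rw [act_mul]
  have hL : act (tauY Y) x = (tauY Y : Matrix _ _ F) *ᵥ x := rfl
  have h1 : aa (act (tauY Y) x) = aa x := aa_tauY Y x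
  have h2 : bb (act (tauY Y) x) = bb x + Y.1 *ᵥ aa x := bb_tauY Y x
  have h3 : ∀ i, act (tauY Y) x (.inl i) = x (.inl i) := fun i => congrFun h1 i
  have h4 : ∀ i, act (tauY Y) x (.inr i) = x (.inr i) + (Y.1 *ᵥ aa x) i := fun i => congrFun h2 i
  have hM0 : (Y.1 *ᵥ aa x) 0 = Y.1 0 0 * x (.inl 0) + col Y ⬝ᵥ aa (res x) := by
    rw [Matrix.mulVec, dotProduct, Fin.sum_univ_succ]
    congr 1
    simp only [dotProduct, col]
    refine Finset.sum_congr rfl fun i _ => ?_
    rw [hsym]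
    rfl
  have hMs : ∀ i : Fin m, (Y.1 *ᵥ aa x) i.succ = col Y i * x (.inl 0) + ((blk Y).1 *ᵥ aa (res x)) i := by
    intro i
    rw [Matrix.mulVec, dotProduct, Fin.sum_univ_succ]
    rfl
  apply ext_split
  · rw [h3, act_sA_inl, act_iota]
    rfl
  · rw [h4, act_sA_inr, act_iota, hM0]
    simp only [glue_inr_zero, glue_inl_zero, res_glue]
    have e1 : aa (act (tauY (blk Y)) (res x)) = aa (res x) := aa_tauY (blk Y) (res x)
    have e2 : sympForm m F (act (tauY (blk Y)) (res x)) (mkV 0 (col Y)) = col Y ⬝ᵥ aa (res x) := by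
      rw [sympForm_eq, e1, aa_mkV, bb_mkV, dotProduct_zero, zero_sub, neg_eq', dotProduct_comm]
    have e3 : Q0 (mkV (0 : Fin m → F) (col Y)) = 0 := by
      simp [Q0, mkV]
    rw [e2, e3, add_zero]
    ring
  · rw [res_act_sA, act_iota, res_glue]
    have e1 : aa (act (tauY (blk Y)) (res x)) = aa (res x) := aa_tauY (blk Y) (res x)
    have e2 : bb (act (tauY (blk Y)) (res x)) = bb (res x) + (blk Y).1 *ᵥ aa (res x) := bb_tauY (blk Y) (res x)
    apply ext_ab
    · funext i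
      show act (tauY Y) x (.inl i.succ) = aa (act (tauY (blk Y)) (res x)) i + x (.inl 0) * (0 : Fin m → F) i
      rw [h3, e1]
      simp
      rfl
    · funext i
      show act (tauY Y) x (.inr i.succ) = bb (act (tauY (blk Y)) (res x)) i + x (.inl 0) * col Y i
      rw [h4, e2, hMs]
      show _ = (x (.inr i.succ) + ((blk Y).1 *ᵥ aa (res x)) i) + _
      ring

/-- The symmetric matrices of rank one at the first coordinate. -/
def e0 (β : F) : symA (m + 1) F :=
  ⟨β • Matrix.vecMulVec (Pi.single 0 1) (Pi.single 0 1), vecMulVec_mem _ _⟩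

theorem tauY_e0 (β : F) : tauY (e0 (m := m) β) = sA ((0 : Fin m ⊕ Fin m → F), β) := by
  rw [tauY_decomp]
  have h1 : col (e0 (m := m) β) = 0 := by
    funext i
    simp [col, e0, Matrix.vecMulVec_apply]
  have h2 : blk (e0 (m := m) β) = 0 := by
    apply Subtype.ext
    ext i j
    simp [blk, e0, Matrix.vecMulVec_apply]
  have h3 : (e0 (m := m) β).1 0 0 = β := by
    simp [e0, Matrix.vecMulVec_apply]
  have h4 : mkV (0 : Fin m → F) 0 = 0 := by
    funext i
    rcases i with i | i <;> rfl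
  rw [h1, h2, h3, h4, tauY_zero, map_one, mul_one]

/-! ### Representations -/

section Rep
variable {U : Type*} [AddCommGroup U] [Module ℂ U]
  (ρ : Representation ℂ (symplecticGroup (Fin (m + 1)) F) U)

/-- The centre of `A` is nontrivial. -/
theorem exists_Z_ne (hρ : ∃ g, ρ g ≠ 1) : ∃ β : F, ρ (sA ((0 : Fin m ⊕ Fin m → F), β)) ≠ 1 := by
  by_contra hc
  push Not at hc
  obtain ⟨g, hg⟩ := hρ
  apply hg
  have hgen : ∀ A ∈ sympTvSet (m + 1) F, ρ A = 1 := by
    rintro A ⟨w, c, hA⟩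
    have hAtr : A = tr w c := Subtype.ext hA
    by_cases hw : w = 0
    · have h1 : A = 1 := by
        rw [hAtr, hw]
        apply Cfsg.Agent.Lib.Fusion.PSp.Basic.sp_ext
        intro v
        rw [act_tr, act_one]
        simp [B_zero_right]
      rw [h1, map_one]
    obtain ⟨B, -, hB⟩ := closure_transitive_vec (a₀_ne_zero (m := m) (F := F)) hw
    have hB' : act B (a₀ m F) = w := hB
    have h3 : A = B * sA ((0 : Fin m ⊕ Fin m → F), c) * B⁻¹ := by
      rw [sA_zero_left, tr_conj, hB', hAtr]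
    rw [h3, map_mul, map_mul, hc, mul_one, ← map_mul, mul_inv_cancel, map_one]
  have hg' : g ∈ Subgroup.closure (sympTvSet (m + 1) F) := by
    rw [closure_sympTvSet]
    trivial
  refine Subgroup.closure_induction hgen (map_one ρ) (fun x y _ _ hx hy => ?_) (fun x _ hx => ?_) hg'
  · rw [map_mul, hx, hy, mul_one]
  · have h1 : ρ x⁻¹ * ρ x = 1 := by
      rw [← map_mul, inv_mul_cancel, map_one]
    rwa [hx, mul_one] at h1

/-- A weight nontrivial on the centre. -/
theorem exists_wt_chi (h : IsPsi ψ) (hρ : ∃ g, ρ g ≠ 1) :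
    ∃ (c : F) (u : Fin m ⊕ Fin m → F), c ≠ 0 ∧ Wt (rA ρ) (chi ψ c u) ≠ ⊥ := by
  classical
  obtain ⟨β, hβ⟩ := exists_Z_ne ρ hρ
  obtain ⟨v, hv⟩ : ∃ v, ρ (sA ((0 : Fin m ⊕ Fin m → F), β)) v ≠ v := by
    by_contra hc
    push Not at hc
    exact hβ (LinearMap.ext hc)
  obtain ⟨χ, hχ⟩ : ∃ χ, ρ (sA ((0 : Fin m ⊕ Fin m → F), β)) (proj (rA ρ) χ v) ≠ proj (rA ρ) χ v := by
    by_contra hc
    push Not at hc
    apply hv
    rw [← sum_proj_zero (rA_addAct ρ) v, map_sum]
    exact Finset.sum_congr rfl fun χ _ => hc χ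
  have hw := proj_mem (rA_addAct ρ) χ v
  have h1 : χ ((0 : Fin m ⊕ Fin m → F), β) ≠ 1 := by
    intro h2
    apply hχ
    have h3 := hw (0, β)
    rw [h2, one_smul] at h3
    exact h3
  have h0 : proj (rA ρ) χ v ≠ 0 := by
    intro h2
    apply hχ
    rw [h2, map_zero]
  obtain ⟨c, u, hc, rfl⟩ := exists_chi h χ ⟨β, h1⟩
  refine ⟨c, u, hc, fun hbot => ?_⟩
  rw [hbot] at hw
  exact h0 ((Submodule.mem_bot ℂ).mp hw)

/-- Conjugating the Siegel radical by a Levi element. -/
theorem adj_e0 (E : SpecialLinearGroup (Fin (m + 1)) F) {z : Fin (m + 1) → F}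
    (hE : (E : Matrix (Fin (m + 1)) (Fin (m + 1)) F) *ᵥ (Pi.single 0 1) = z) (s : F) :
    adj (E : Matrix (Fin (m + 1)) (Fin (m + 1)) F) (e0 s) =
      ⟨s • Matrix.vecMulVec z z, vecMulVec_mem z s⟩ := by
  apply Subtype.ext
  show (E : Matrix (Fin (m + 1)) (Fin (m + 1)) F) * (s • Matrix.vecMulVec (Pi.single 0 1) (Pi.single 0 1)) *
    (E : Matrix (Fin (m + 1)) (Fin (m + 1)) F)ᵀ = _
  rw [Matrix.mul_smul, Matrix.smul_mul, Matrix.mul_vecMulVec, Matrix.vecMulVec_mul, Matrix.vecMul_transpose, hE]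

theorem adj_surj (E : SpecialLinearGroup (Fin (m + 1)) F) (Y : symA (m + 1) F) :
    ∃ Y', adj (E : Matrix (Fin (m + 1)) (Fin (m + 1)) F) Y' = Y := by
  have h1 : (E : Matrix (Fin (m + 1)) (Fin (m + 1)) F) * ((E⁻¹ : SpecialLinearGroup (Fin (m + 1)) F) : Matrix (Fin (m + 1)) (Fin (m + 1)) F) = 1 := by
    have h3 : ((E * E⁻¹ : SpecialLinearGroup (Fin (m + 1)) F) : Matrix (Fin (m + 1)) (Fin (m + 1)) F) =
      ((1 : SpecialLinearGroup (Fin (m + 1)) F) : Matrix (Fin (m + 1)) (Fin (m + 1)) F) := by rw [mul_inv_cancel]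
    exact h3
  refine ⟨adj ((E⁻¹ : SpecialLinearGroup (Fin (m + 1)) F) : Matrix (Fin (m + 1)) (Fin (m + 1)) F) Y, ?_⟩
  apply Subtype.ext
  simp only [adj_coe]
  have h2 : ((E⁻¹ : SpecialLinearGroup (Fin (m + 1)) F) : Matrix (Fin (m + 1)) (Fin (m + 1)) F)ᵀ *
      (E : Matrix (Fin (m + 1)) (Fin (m + 1)) F)ᵀ = 1 := by
    rw [← transpose_mul, h1, transpose_one]
  rw [Matrix.mul_assoc, Matrix.mul_assoc, h2, Matrix.mul_one, ← Matrix.mul_assoc, h1, Matrix.one_mul]

/-- **The fixed space is moved by the Siegel radical.** -/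
theorem exists_moved (hm : 2 ≤ m) (h : IsPsi ψ) (hρ : ∃ g, ρ g ≠ 1) :
    ∃ v ∈ TT ρ, ∃ Y, ρ (tauY Y) v ≠ v := by
  classical
  by_contra hc
  push Not at hc
  obtain ⟨Y₀, hY₀⟩ := exists_ne_tauY (n := m + 1) (by omega) ρ hρ
  obtain ⟨χ, hχ, hχb⟩ := exists_wt_ne_one (rOf_addAct ρ) ⟨Y₀, hY₀⟩
  obtain ⟨z, hz, hzs⟩ := exists_cw (n := m + 1) (by omega) h χ
  obtain ⟨v, hv, hv0⟩ := Submodule.exists_mem_ne_zero_of_ne_bot hχb
  have he : (Pi.single 0 1 : Fin (m + 1) → F) ≠ 0 := by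
    intro hc
    have := congrFun hc 0
    simp at this
  obtain ⟨E, hE⟩ := Cfsg.Agent.Lib.Linalg.Bridge.exists_SL_mulVec_eq (ι := Fin (m + 1)) (F := F)
    (by rw [Fintype.card_fin]; omega) he hz
  obtain ⟨g, hg⟩ := exists_levi E
  have hconj : ∀ (Y : symA (m + 1) F) (w : U), ρ (tauY Y) (ρ g⁻¹ w) =
      ρ g⁻¹ (ρ (tauY (adj (E : Matrix (Fin (m + 1)) (Fin (m + 1)) F) Y)) w) := by
    intro Y w
    have e : tauY Y * g⁻¹ = g⁻¹ * tauY (adj (E : Matrix (Fin (m + 1)) (Fin (m + 1)) F) Y) := by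
      rw [← hg Y]
      group
    rw [← Module.End.mul_apply, ← map_mul, e, map_mul, Module.End.mul_apply]
  have hv' : ρ g⁻¹ v ∈ TT ρ := by
    rw [mem_TT]
    intro β
    rw [← tauY_e0, hconj, adj_e0 E hE β]
    have h1 : ρ (tauY ⟨β • Matrix.vecMulVec z z, vecMulVec_mem z β⟩) v =
      χ ⟨β • Matrix.vecMulVec z z, vecMulVec_mem z β⟩ • v := hv _
    rw [h1, hzs, one_smul]
  have hall : ∀ Y, ρ (tauY (adj (E : Matrix (Fin (m + 1)) (Fin (m + 1)) F) Y)) v = v := by
    intro Y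
    have h1 := hc _ hv' Y
    rw [hconj] at h1
    have h2 : ρ g (ρ g⁻¹ (ρ (tauY (adj (E : Matrix (Fin (m + 1)) (Fin (m + 1)) F) Y)) v)) =
        ρ g (ρ g⁻¹ v) := by rw [h1]
    have h3 : ∀ w, ρ g (ρ g⁻¹ w) = w := by
      intro w
      rw [← Module.End.mul_apply, ← map_mul, mul_inv_cancel, map_one]
      rfl
    rwa [h3, h3] at h2
  apply hχ
  ext Y
  obtain ⟨Y', rfl⟩ := adj_surj E Y
  have h1 : ρ (tauY _) v = χ _ • v := hv (adj (E : Matrix (Fin (m + 1)) (Fin (m + 1)) F) Y')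
  rw [hall] at h1
  have h2 : (χ (adj (E : Matrix (Fin (m + 1)) (Fin (m + 1)) F) Y') - 1) • v = 0 := by
    rw [sub_smul, one_smul, ← h1, sub_self]
  rcases smul_eq_zero.mp h2 with h3 | h3
  · rw [AddChar.one_apply]
    exact sub_eq_zero.mp h3
  · exact absurd h3 hv0

/-! ### The two cases -/

theorem iota_comm (g : symplecticGroup (Fin m) F) (β : F) :
    iota g * sA ((0 : Fin m ⊕ Fin m → F), β) = sA ((0 : Fin m ⊕ Fin m → F), β) * iota g := by
  have h1 := iota_conj g 0 β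
  rw [act_zero, Q0_zero, add_zero, add_zero] at h1
  rwa [mul_inv_eq_iff_eq_mul] at h1

theorem iota_TT (g : symplecticGroup (Fin m) F) (v : U) (hv : v ∈ TT ρ) : ρ (iota g) v ∈ TT ρ := by
  rw [mem_TT] at hv ⊢
  intro β
  rw [← Module.End.mul_apply, ← map_mul, ← iota_comm, map_mul, Module.End.mul_apply, hv β]

/-- Case A : `A` moves `TT`. -/
theorem caseA [FiniteDimensional ℂ U] (h : IsPsi ψ) (hmv : ∃ v ∈ TT ρ, ∃ p, rA ρ p v ≠ v) :
    Fintype.card F ^ (2 * m) - 1 ≤ Module.finrank ℂ (TT ρ) := by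
  classical
  have hW := rA_TT (m := m) (F := F) ρ
  have hr := restr_addAct (rA_addAct ρ) (TT ρ) hW
  have hne : ∃ c, restr (rA ρ) (TT ρ) hW c ≠ 1 := by
    obtain ⟨v, hv, p, hp⟩ := hmv
    refine ⟨p, fun hc => hp ?_⟩
    have h1 := congrArg (fun f : Module.End ℂ (TT ρ) => ((f ⟨v, hv⟩ : TT ρ) : U)) hc
    exact h1
  obtain ⟨χ, hχ, hχb⟩ := exists_wt_ne_one hr hne
  obtain ⟨v, hv, hv0⟩ := Submodule.exists_mem_ne_zero_of_ne_bot hχb
  have hv1 : (v : U) ∈ Wt (rA ρ) χ := fun a => congrArg Subtype.val (hv a)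
  have hv00 : (v : U) ≠ 0 := fun hc => hv0 (Subtype.ext hc)
  have hZ : ∀ β : F, χ ((0 : Fin m ⊕ Fin m → F), β) = 1 := by
    intro β
    have h1 := (mem_TT ρ).mp v.2 β
    have h2 : rA ρ (0, β) (v : U) = χ (0, β) • (v : U) := hv1 (0, β)
    have h3 : rA ρ ((0 : Fin m ⊕ Fin m → F), β) (v : U) = v := h1
    rw [h3] at h2
    have h4 : (χ ((0 : Fin m ⊕ Fin m → F), β) - 1) • (v : U) = 0 := by
      rw [sub_smul, one_smul, ← h2, sub_self]
    rcases smul_eq_zero.mp h4 with h5 | h5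
    · exact sub_eq_zero.mp h5
    · exact absurd h5 hv00
  obtain ⟨u, rfl⟩ := exists_chi0 h χ hZ
  have hu : u ≠ 0 := by
    rintro rfl
    apply hχ
    ext ⟨y, β⟩
    simp [B_zero_right]
  let S : Finset (AddChar ((Fin m ⊕ Fin m → F) × F) ℂ) :=
    (Finset.univ.filter (fun u' : Fin m ⊕ Fin m → F => u' ≠ 0)).image (chi0 ψ)
  have hS : S.card = Fintype.card F ^ (2 * m) - 1 := by
    rw [Finset.card_image_of_injective _ (fun a b e => chi0_inj h e), Finset.filter_ne',
      Finset.card_erase_of_mem (Finset.mem_univ _), Finset.card_univ, card_vec]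
  rw [← hS]
  apply card_le_of_occurs (TT ρ) hW S
  intro χ' hχ'
  obtain ⟨u', hu', rfl⟩ := Finset.mem_image.mp hχ'
  have hu'0 : u' ≠ 0 := (Finset.mem_filter.mp hu').2
  obtain ⟨g, -, hg⟩ := closure_transitive_vec hu'0 hu
  have hg' : act g u' = u := hg
  have h3 : ρ (iota g)⁻¹ (v : U) ∈ Wt (rA ρ) (chi0 ψ u') := by
    refine wt_translate ρ (h := iota g)
      (f := fun p => (act g p.1, p.2 + Q0 p.1 + Q0 (act g p.1))) ?_ ?_ hv1
    · rintro ⟨y, β⟩
      exact iota_conj g y β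
    · rintro ⟨y, β⟩
      simp only [chi0_apply]
      rw [← hg', B_act]
  refine ⟨_, ?_, inv_apply_ne_zero ρ _ hv00, h3⟩
  rw [← map_inv]
  exact iota_TT ρ _ _ v.2

end Rep

/-! ### Irreducible constituents -/

/-- An irreducible constituent moved by a perfect group has degree at least two. -/
theorem exists_irred_constituent {G W : Type*} [Group G] [Finite G] [AddCommGroup W] [Module ℂ W]
    [FiniteDimensional ℂ W] (hperf : commutator G = ⊤) (ρ : G →* Module.End ℂ W)
    (T : Submodule ℂ W) (hT : ∀ g, ∀ v ∈ T, ρ g v ∈ T) (hne : ∃ g, ∃ v ∈ T, ρ g v ≠ v) :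
    ∃ d, 2 ≤ d ∧ d ≤ Module.finrank ℂ T ∧ ∃ ρ' : Representation ℂ G (Fin d → ℂ), ρ'.IsIrreducible := by
  classical
  have := Fintype.ofFinite G
  have hcard : (Fintype.card G : ℂ) ≠ 0 := Nat.cast_ne_zero.mpr Fintype.card_ne_zero
  let e : Module.End ℂ W := (Fintype.card G : ℂ)⁻¹ • ∑ g, ρ g
  have he1 : ∀ h x, e (ρ h x) = e x := by
    intro h x
    simp only [e, LinearMap.smul_apply, LinearMap.sum_apply]
    congr 1
    rw [← Equiv.sum_comp (Equiv.mulRight h) (fun g => ρ g x)]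
    refine Finset.sum_congr rfl fun g _ => ?_
    simp only [Equiv.coe_mulRight, map_mul, Module.End.mul_apply]
  have he2 : ∀ v, (∀ g, ρ g v = v) → e v = v := by
    intro v hv
    simp only [e, LinearMap.smul_apply, LinearMap.sum_apply, hv]
    rw [Finset.sum_const, Finset.card_univ, ← Nat.cast_smul_eq_nsmul ℂ, smul_smul,
      inv_mul_cancel₀ hcard, one_smul]
  let P : Submodule ℂ W → Prop := fun X =>
    X ≤ T ∧ X ≤ LinearMap.ker e ∧ X ≠ ⊥ ∧ ∀ g, ∀ v ∈ X, ρ g v ∈ X
  have hex : ∃ n, ∃ X, P X ∧ Module.finrank ℂ X = n := by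
    refine ⟨_, T ⊓ LinearMap.ker e, ⟨inf_le_left, inf_le_right, ?_, ?_⟩, rfl⟩
    · obtain ⟨g, v, hv, hgv⟩ := hne
      intro hbot
      have h1 : ρ g v - v ∈ T ⊓ LinearMap.ker e := by
        refine ⟨T.sub_mem (hT g v hv) hv, ?_⟩
        show e _ = 0
        rw [map_sub, he1, sub_self]
      rw [hbot, Submodule.mem_bot] at h1
      exact hgv (sub_eq_zero.mp h1)
    · rintro g v ⟨hv1, hv2⟩
      refine ⟨hT g v hv1, ?_⟩
      show e _ = 0
      rw [he1]
      exact hv2
  obtain ⟨X, hX, hXn⟩ := Nat.find_spec hex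
  have hmin : ∀ X', P X' → Module.finrank ℂ X ≤ Module.finrank ℂ X' := by
    intro X' h'
    rw [hXn]
    exact Nat.find_min' hex ⟨X', h', rfl⟩
  obtain ⟨hXT, hXe, hX0, hXinv⟩ := hX
  have hnofix : ∀ v ∈ X, (∀ g, ρ g v = v) → v = 0 := by
    intro v hv hfix
    rw [← he2 v hfix]
    exact hXe hv
  have hd0 : 0 < Module.finrank ℂ X := by
    rw [Nat.pos_iff_ne_zero]
    intro h0
    exact hX0 (Submodule.finrank_eq_zero.mp h0)
  have hd1 : Module.finrank ℂ X ≠ 1 := by
    intro h1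
    obtain ⟨x, hx, hx0⟩ := Submodule.exists_mem_ne_zero_of_ne_bot hX0
    have hspan : Submodule.span ℂ {x} = X := by
      apply Submodule.eq_of_le_of_finrank_le
      · rw [Submodule.span_singleton_le_iff_mem]
        exact hx
      · rw [finrank_span_singleton hx0, h1]
    have hc : ∀ g, ∃ c : ℂ, ρ g x = c • x := by
      intro g
      have h2 : ρ g x ∈ Submodule.span ℂ {x} := by
        rw [hspan]
        exact hXinv g x hx
      obtain ⟨c, hc⟩ := Submodule.mem_span_singleton.mp h2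
      exact ⟨c, hc.symm⟩
    choose c hc using hc
    have hinv : ∀ g, c g⁻¹ * c g = 1 := by
      intro g
      have h2 : ρ g (ρ g⁻¹ x) = x := by
        rw [← Module.End.mul_apply, ← map_mul, mul_inv_cancel, map_one]
        rfl
      rw [hc g⁻¹, map_smul, hc g, smul_smul] at h2
      have h3 : (c g⁻¹ * c g - 1) • x = 0 := by
        rw [sub_smul, one_smul, h2, sub_self]
      rcases smul_eq_zero.mp h3 with h4 | h4
      · exact sub_eq_zero.mp h4
      · exact absurd h4 hx0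
    let S : Subgroup G :=
      { carrier := {g | ρ g x = x}
        mul_mem' := by
          intro a b ha hb
          show ρ (a * b) x = x
          rw [map_mul, Module.End.mul_apply, hb, ha]
        one_mem' := by
          show ρ 1 x = x
          rw [map_one]
          rfl
        inv_mem' := by
          intro a ha
          show ρ a⁻¹ x = x
          have h2 : ρ a⁻¹ (ρ a x) = x := by
            rw [← Module.End.mul_apply, ← map_mul, inv_mul_cancel, map_one]
            rfl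
          rwa [ha] at h2 }
    have hS : commutator G ≤ S := by
      rw [commutator_def, Subgroup.commutator_le]
      intro a _ b _
      show ρ (a * b * a⁻¹ * b⁻¹) x = x
      simp only [map_mul, Module.End.mul_apply]
      rw [hc b⁻¹, map_smul, map_smul, map_smul, hc a⁻¹, map_smul, map_smul, hc b, map_smul, hc a,
        smul_smul, smul_smul, smul_smul]
      have h2 : c b⁻¹ * c a⁻¹ * c b * c a = (c b⁻¹ * c b) * (c a⁻¹ * c a) := by ring
      rw [h2, hinv, hinv, one_mul, one_smul]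
    apply hx0
    apply hnofix x hx
    intro g
    have hg : g ∈ commutator G := by
      rw [hperf]
      trivial
    exact hS hg
  refine ⟨Module.finrank ℂ X, by omega, Submodule.finrank_mono hXT, ?_⟩
  refine Cfsg.Agent.Lib.MinDeg.Weil.Odd.exists_irred_of (MonoidHom.toHomUnits ρ) X
    (fun g v hv => hXinv g v hv) ?_ rfl hd0
  intro K hK hK0 hKinv
  apply Submodule.eq_of_le_of_finrank_le hK
  exact hmin K ⟨hK.trans hXT, hK.trans hXe, hK0, fun g v hv => hKinv g v hv⟩

end Cfsg.Agent.Lib.MinDeg.SpEven.Fixed
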