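import Mathlib
import Cfsg.Agent.Lib.MinDeg.SpEven.Fixed

/-!
# The minimal degree of `Sp_{2n}(q)`, `q` even

Every nontrivial representation of `Sp_{2n}(q)`, `q` even, has degree at least
`(q^n - 1)(q^n - q) / (2 (q + 1))`.
-/

set_option autoImplicit false
set_option linter.unusedSectionVars false
set_option linter.unusedSimpArgs false
set_option linter.unusedVariables false

namespace Cfsg.Agent.Lib.MinDeg.SpEven.Main

open Matrix Cfsg Cfsg.Agent.Lib.Classical.Symp.Basic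
open Cfsg.Agent.Lib.Fusion.PSp.Basic
open Cfsg.Agent.Lib.MinDeg.SpEven.Psi Cfsg.Agent.Lib.MinDeg.SpEven.Coord
open Cfsg.Agent.Lib.MinDeg.SpEven.Chars Cfsg.Agent.Lib.MinDeg.SpEven.Fixed
open Cfsg.Agent.Lib.MinDeg.Weights
open Cfsg.Agent.Lib.MinDeg.SpSiegel

variable {F : Type*} [Field F] [Fintype F] [DecidableEq F] [CharP F 2] {m : ℕ}

theorem arith (q Q N t k : ℕ) (hq : 2 ≤ q) (hQ : q ≤ Q) (h1 : (q - 1) * N + t ≤ k)
    (h2 : Q * Q ≤ 2 * N + Q) (h3 : (Q - 1) * (Q - q) ≤ 2 * (q + 1) * t) :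
    (q * Q - 1) * (q * Q - q) ≤ 2 * (q + 1) * k := by
  have hq1 : 1 ≤ q := by omega
  have hQ1 : 1 ≤ Q := by omega
  have hqQ1 : 1 ≤ q * Q := by nlinarith
  have hqQq : q ≤ q * Q := by nlinarith
  zify [hq1, hQ1, hqQ1, hqQq, hQ] at h1 h2 h3 ⊢
  have hq' : (2 : ℤ) ≤ q := by exact_mod_cast hq
  have e1 := mul_le_mul_of_nonneg_left h1 (by nlinarith : (0 : ℤ) ≤ 2 * ((q : ℤ) + 1))
  have e2 := mul_le_mul_of_nonneg_left h2 (by nlinarith : (0 : ℤ) ≤ (q : ℤ) ^ 2 - 1)
  nlinarith [e1, e2, h3]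

/-- The dimension of the fixed space. -/
theorem fixed_dim {U : Type*} [AddCommGroup U] [Module ℂ U] [FiniteDimensional ℂ U]
    (ρ : Representation ℂ (symplecticGroup (Fin (m + 1)) F) U) {ψ : AddChar F ℂ}
    (hm : 1 ≤ m) (h : IsPsi ψ) (hρ : ∃ g, ρ g ≠ 1) (hq2 : 2 ≤ Fintype.card F)
    (IH : ∀ (k : ℕ) (ρ' : Representation ℂ (symplecticGroup (Fin m) F) (Fin k → ℂ)),
      ρ'.IsIrreducible → 2 ≤ k → (Fintype.card F ^ m - 1) * (Fintype.card F ^ m - Fintype.card F) ≤
        2 * (Fintype.card F + 1) * k) :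
    (Fintype.card F ^ m - 1) * (Fintype.card F ^ m - Fintype.card F) ≤
      2 * (Fintype.card F + 1) * Module.finrank ℂ (TT ρ) := by
  by_cases hm1 : m = 1
  · subst hm1
    simp
  have hm2 : 2 ≤ m := by omega
  obtain ⟨v, hvT, Y, hY⟩ := exists_moved ρ hm2 h hρ
  rw [tauY_decomp, map_mul, Module.End.mul_apply] at hY
  by_cases hi : ρ (iota (tauY (blk Y))) v = v
  · -- case A
    rw [hi] at hY
    have hA := caseA ρ h ⟨v, hvT, _, hY⟩
    set q := Fintype.card F
    have h1 : (q ^ m - 1) * (q ^ m - q) ≤ q ^ (2 * m) - 1 := by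
      have h2 : q ^ (2 * m) - 1 = (q ^ m - 1) * (q ^ m + 1) := by
        have h3 : 1 ≤ q ^ m := Nat.one_le_pow _ _ (by omega)
        obtain ⟨a, ha⟩ : ∃ a, q ^ m = a + 1 := ⟨q ^ m - 1, by omega⟩
        rw [two_mul, pow_add, ha]
        simp only [Nat.add_sub_cancel]
        have : (a + 1) * (a + 1) - 1 = a * (a + 1 + 1) := by
          have h5 : (a + 1) * (a + 1) = a * (a + 1 + 1) + 1 := by ring
          omega
        exact this
      rw [h2]
      exact Nat.mul_le_mul_left _ (by omega)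
    calc _ ≤ 1 * Module.finrank ℂ (TT ρ) := by
          rw [one_mul]
          exact h1.trans hA
      _ ≤ _ := Nat.mul_le_mul_right _ (by omega)
  · -- case B
    by_cases hperf : 3 ≤ m ∨ (m = 2 ∧ 3 ≤ Fintype.card F) ∨ 4 ≤ Fintype.card F
    · obtain ⟨d, hd2, hdt, ρ', hρ'⟩ := exists_irred_constituent
        (Cfsg.Agent.Lib.Classical.Symp.Perfect.commutator_symplecticGroup (F := F) m hperf)
        (ρ.comp iota) (TT ρ) (fun g v hv => iota_TT ρ g v hv)
        ⟨_, v, hvT, hi⟩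
      exact (IH d ρ' hρ' hd2).trans (Nat.mul_le_mul_left _ hdt)
    · have hm3 : m = 2 := by omega
      have hq3 : Fintype.card F = 2 := by omega
      subst hm3
      rw [hq3]
      have hv0 : v ≠ 0 := by
        rintro rfl
        apply hi
        rw [map_zero]
      have ht : 1 ≤ Module.finrank ℂ (TT ρ) := by
        rw [Nat.one_le_iff_ne_zero]
        intro h0
        have h1 := Submodule.finrank_eq_zero.mp h0
        rw [h1, Submodule.mem_bot] at hvT
        exact hv0 hvT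
      calc (2 ^ 2 - 1) * (2 ^ 2 - 2) = 2 * (2 + 1) * 1 := by norm_num
        _ ≤ _ := Nat.mul_le_mul_left _ ht

/-- **The induction step.** -/
theorem step {U : Type*} [AddCommGroup U] [Module ℂ U] [FiniteDimensional ℂ U]
    (ρ : Representation ℂ (symplecticGroup (Fin (m + 1)) F) U)
    (hm : 1 ≤ m) (hρ : ∃ g, ρ g ≠ 1)
    (IH : ∀ (k : ℕ) (ρ' : Representation ℂ (symplecticGroup (Fin m) F) (Fin k → ℂ)),
      ρ'.IsIrreducible → 2 ≤ k → (Fintype.card F ^ m - 1) * (Fintype.card F ^ m - Fintype.card F) ≤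
        2 * (Fintype.card F + 1) * k) :
    (Fintype.card F ^ (m + 1) - 1) * (Fintype.card F ^ (m + 1) - Fintype.card F) ≤
      2 * (Fintype.card F + 1) * Module.finrank ℂ U := by
  obtain ⟨ψ, h⟩ := exists_isPsi (F := F)
  have hq2 : 2 ≤ Fintype.card F := Fintype.one_lt_card
  obtain ⟨c, u, hc, hw⟩ := exists_wt_chi ρ h hρ
  have h1 := count_le ρ h hc hw
  have h2 := card_DD h u
  have h3 := fixed_dim ρ hm h hρ hq2 IH
  rw [pow_succ']
  have hQ : Fintype.card F ≤ Fintype.card F ^ m := by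
    calc Fintype.card F = Fintype.card F ^ 1 := (pow_one _).symm
      _ ≤ _ := Nat.pow_le_pow_right (by omega) hm
  refine arith _ _ (DD ψ u).card _ _ hq2 hQ h1 ?_ h3
  rw [two_mul m, pow_add] at h2
  exact h2

/-- **The bound.** -/
theorem bound (n : ℕ) : ∀ (k : ℕ) (ρ : Representation ℂ (symplecticGroup (Fin n) F) (Fin k → ℂ)),
    ρ.IsIrreducible → 2 ≤ k → (Fintype.card F ^ n - 1) * (Fintype.card F ^ n - Fintype.card F) ≤
      2 * (Fintype.card F + 1) * k := by
  induction n with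
  | zero =>
    intro k ρ _ _
    simp
  | succ m ih =>
    intro k ρ hρ hk
    by_cases hm : m = 0
    · subst hm
      simp
    have := step ρ (by omega) (exists_ne_one_of_irreducible hρ hk) ih
    simpa using this

end Cfsg.Agent.Lib.MinDeg.SpEven.Main
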